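import Mathlib
import Cfsg.Agent.Lib.Helper32.D8Stmt
import Cfsg.Agent.Lib.Helper80.Codegree

set_option autoImplicit false

namespace Cfsg.Agent.Lib.Helper62.D8KER

open Cfsg Cfsg.Agent.Lib.Helper32

universe u

/-- An irreducible character different from the constant `1` is not the principal
`IrrCharacter`. -/
theorem ne_triv {G : Type u} [Group G] {χ : G → ℂ} (hχ : IsIrrCharacter G χ)
    (hne : χ ≠ D8Stmt.triv G) :
    (⟨χ, hχ⟩ : IrrCharacter G) ≠ Cfsg.Agent.Lib.Helper80.Codegree.triv G := by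
  intro h
  apply hne
  have h2 : χ = ((Cfsg.Agent.Lib.Helper80.Codegree.triv G : IrrCharacter G) : G → ℂ) :=
    congrArg Subtype.val h
  rw [h2]
  funext g
  rfl

/-- A nontrivial irreducible character of a simple group is faithful. -/
theorem faithful {G : Type u} [Group G] [Finite G] (hsimp : IsSimpleGroup G) {χ : G → ℂ}
    (hχ : IsIrrCharacter G χ) (hne : χ ≠ D8Stmt.triv G) (g : G) (hg : χ g = χ 1) : g = 1 := by
  haveI := hsimp
  exact Cfsg.Agent.Lib.Helper80.Codegree.faithful_of_simple ⟨χ, hχ⟩ (ne_triv hχ hne) g hg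

theorem main : D8Stmt.KER.{u} := by
  intro G _ _ hsimp χ hχ u hu hχu
  by_contra hne
  exact hu (faithful hsimp hχ hne u hχu)

end Cfsg.Agent.Lib.Helper62.D8KER
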