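import Mathlib
import Cfsg.Agent.Lib.Helper32.D8Stmt
import Cfsg.Agent.Lib.Helper80.Codegree
import Cfsg.Agent.Lib.CT.LinChar
import Cfsg.Agent.Lib.Helper62.D8KER

set_option autoImplicit false

namespace Cfsg.Agent.Lib.Helper62.D8LIN

open Cfsg Cfsg.Agent.Lib.Helper32

universe u

theorem main : D8Stmt.LIN.{u} := by
  intro G _ _ hsimp h9 χ hχ h1
  haveI := hsimp
  by_contra hne
  have hfaith : ∀ g, χ g = χ 1 → g = 1 := fun g hg =>
    Cfsg.Agent.Lib.Helper62.D8KER.faithful hsimp hχ hne g hg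
  have hchar : IsCharacter G χ := by
    obtain ⟨n, ρ, _, h⟩ := hχ
    exact ⟨n, ρ, h⟩
  have hmul := Cfsg.Agent.Lib.CT.LinChar.linear_mul hchar h1
  have hcomm : ∀ a b : G, a * b = b * a := by
    intro a b
    have h2 : χ (a * b * a⁻¹ * b⁻¹) = χ 1 := by
      have ha : χ a * χ a⁻¹ = 1 := by rw [← hmul, mul_inv_cancel, h1]
      have hb : χ b * χ b⁻¹ = 1 := by rw [← hmul, mul_inv_cancel, h1]
      rw [hmul, hmul, hmul, h1]
      linear_combination (χ b * χ b⁻¹) * ha + hb
    have h3 := hfaith _ h2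
    calc a * b = (a * b * a⁻¹ * b⁻¹) * (b * a) := by group
      _ = b * a := by rw [h3, one_mul]
  have h3 : 3 ∣ Nat.card G := Dvd.dvd.trans (by norm_num) h9
  haveI : Fact (Nat.Prime 3) := ⟨Nat.prime_three⟩
  obtain ⟨g, hg⟩ := exists_prime_orderOf_dvd_card' 3 h3
  have hn : (Subgroup.zpowers g).Normal := by
    constructor
    intro n hn k
    have h4 : k * n * k⁻¹ = n := by rw [hcomm k n, mul_inv_cancel_right]
    rw [h4]; exact hn
  rcases hn.eq_bot_or_eq_top with h | h
  · have h4 : g ∈ Subgroup.zpowers g := Subgroup.mem_zpowers g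
    rw [h, Subgroup.mem_bot] at h4
    rw [h4, orderOf_one] at hg
    norm_num at hg
  · have hc : Nat.card (Subgroup.zpowers g) = 3 := by rw [Nat.card_zpowers, hg]
    rw [h, Subgroup.card_top] at hc
    rw [hc] at h9
    norm_num at h9

end Cfsg.Agent.Lib.Helper62.D8LIN
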