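import Mathlib
import Cfsg.Agent.Lib.Helper25.ACStmt

set_option autoImplicit false

namespace Cfsg.Agent.Lib.Helper62.ACCASEE

universe u

open Cfsg.Agent.Lib.Helper25.ACStmt

theorem main (hE : ExpSyl.{u}) (hS : SZLift.{u}) (hL : LiftCrit.{u}) : CaseE.{u} := by
  intro G _ _ hB r _ R N₀ hN₀n hp hne hexp
  have hcop : Nat.Coprime (Nat.card ↥N₀) N₀.index := hE G hB r R N₀ hN₀n hp hne hexp
  refine hL G N₀ hB ⟨id, fun A hA => ?_⟩
  have hdvd : Nat.card ↥A ∣ N₀.index := by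
    rw [Subgroup.index_eq_card]
    exact Subgroup.card_subgroup_dvd_card A
  have hcop' : Nat.Coprime (Nat.card ↥N₀) (Nat.card ↥A) :=
    Nat.Coprime.coprime_dvd_right hdvd hcop
  obtain ⟨A₀, h1, h2, h3⟩ := hS G N₀ A hA hcop'
  exact ⟨A₀, h1, h2, h3⟩

end Cfsg.Agent.Lib.Helper62.ACCASEE
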