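import Mathlib
import Cfsg.Agent.Lib.Helper25.ACStmt
import Cfsg.Agent.Lib.Helper72.CoprimeHall

set_option autoImplicit false

namespace Cfsg.Agent.Lib.Helper62.ACKZERO

universe u

theorem main : Cfsg.Agent.Lib.Helper25.ACStmt.KZero.{u} := by
  intro G _ _ hsol M hMn hM
  haveI := hMn
  haveI : Group.IsSolvable G := hsol
  haveI : Group.IsSolvable ↥M :=
    solvable_of_solvable_injective (Subgroup.subtype_injective M)
  obtain ⟨p, N, hp, hNn, hNM, hNp, hN⟩ :=
    Cfsg.Agent.Lib.Helper72.CoprimeHall.exists_normal_pgroup M hM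
  exact ⟨p, N, hp, hNn, hNp, hN, hNM⟩

end Cfsg.Agent.Lib.Helper62.ACKZERO
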