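import Mathlib
import Cfsg.Agent.Lib.Helper25.ACStmt

set_option autoImplicit false

namespace Cfsg.Agent.Lib.Helper62.ACUNIQSUB

universe u

open Cfsg.Agent.Lib.Helper25.ACStmt

theorem main (hS : SylUniq.{u}) : UniqSub.{u} := by
  intro G _ _ hB r hrF R N₀ hN₀n hN₀p hN₀ne hex
  have hr : r.Prime := hrF.out
  obtain ⟨Z₀, hZR, hZc, hZall⟩ := hS G hB r R hex
  -- N₀ ≤ R
  have hN₀R : N₀ ≤ (R : Subgroup G) := by
    obtain ⟨Q, hQ⟩ := hN₀p.exists_le_sylow
    obtain ⟨g, hg⟩ := MulAction.exists_smul_eq G R Q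
    intro n hn
    have h1 : g * n * g⁻¹ ∈ N₀ := hN₀n.conj_mem n hn g
    have h2 : g * n * g⁻¹ ∈ (Q : Subgroup G) := hQ h1
    rw [← hg, Sylow.coe_subgroup_smul, Subgroup.mem_pointwise_smul_iff_inv_smul_mem] at h2
    have h3 : (MulAut.conj g)⁻¹ • (g * n * g⁻¹) = n := by
      rw [← map_inv, MulAut.smul_def, MulAut.conj_apply]
      group
    rwa [h3] at h2
  -- an element of order r in N₀
  have hrN : r ∣ Nat.card ↥N₀ := by
    obtain ⟨k, hk⟩ := IsPGroup.iff_card.mp hN₀p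
    rcases Nat.eq_zero_or_pos k with h0 | h0
    · exfalso
      rw [h0, pow_zero] at hk
      exact hN₀ne (Subgroup.eq_bot_of_card_eq _ hk)
    · rw [hk]
      exact dvd_pow_self r h0.ne'
  obtain ⟨y, hy⟩ := exists_prime_orderOf_dvd_card' r hrN
  have hyG : orderOf (y : G) = r := by rw [Subgroup.orderOf_coe]; exact hy
  have hyZ : (y : G) ∈ Z₀ := hZall _ (hN₀R y.2) hyG
  have hZeq : Subgroup.zpowers (y : G) = Z₀ :=
    Subgroup.eq_of_le_of_card_ge (by rw [Subgroup.zpowers_le]; exact hyZ)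
      (by rw [Nat.card_zpowers, hyG, hZc])
  have hZN : Z₀ ≤ N₀ := by
    rw [← hZeq, Subgroup.zpowers_le]; exact y.2
  -- all elements of order r
  have hall : ∀ x : G, orderOf x = r → x ∈ Z₀ := by
    intro x hx
    have hcA : IsMulCommutative ↥(Subgroup.zpowers (y : G)) := inferInstance
    have hcB : IsMulCommutative ↥(Subgroup.zpowers x) := inferInstance
    obtain ⟨g, hg⟩ := hB (Subgroup.zpowers (y : G)) (Subgroup.zpowers x) hcA hcB
      (by rw [Nat.card_zpowers, Nat.card_zpowers, hyG, hx])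
    have hxm : x ∈ (Subgroup.zpowers (y : G)).map (MulAut.conj g).toMonoidHom := by
      rw [← hg]; exact Subgroup.mem_zpowers x
    obtain ⟨w, hw, hwx⟩ := hxm
    have hwN : w ∈ N₀ := hZN (hZeq ▸ hw)
    have hxN : x ∈ N₀ := by
      rw [← hwx]
      exact hN₀n.conj_mem w hwN g
    exact hZall x (hN₀R hxN) hx
  refine ⟨Z₀, ⟨?_⟩, hZc, hZN, hall⟩
  intro z hz g
  by_cases hz1 : z = 1
  · rw [hz1]; simp
  · have hoz : orderOf z = r := by
      have h1 : orderOf z ∣ r := by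
        have := orderOf_dvd_natCard (⟨z, hz⟩ : ↥Z₀)
        rwa [Subgroup.orderOf_mk, hZc] at this
      rcases (Nat.dvd_prime hr).mp h1 with h | h
      · exact absurd (orderOf_eq_one_iff.mp h) hz1
      · exact h
    apply hall
    rw [← MulAut.conj_apply, MulEquiv.orderOf_eq]
    exact hoz

end Cfsg.Agent.Lib.Helper62.ACUNIQSUB
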