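import Mathlib
import Cfsg.Agent.Lib.Helper30.CTIStmt

set_option autoImplicit false
set_option linter.style.haveILetI false

/-! Piece CINV of S4064: a nilpotent group of even order has a central involution. -/

namespace Cfsg.Agent.Lib.Helper62.CTICINV

open Cfsg Cfsg.Agent.Lib.Helper30.CTIStmt
open scoped commutatorElement

universe u

/-- a nontrivial normal subgroup of a nilpotent group contains a nontrivial central element. -/
theorem exists_center_of_normal {M : Type u} [Group M] [Group.IsNilpotent M] (N : Subgroup M)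
    [hNn : N.Normal] (hN : N ≠ ⊥) : ∃ x ∈ N, x ∈ Subgroup.center M ∧ x ≠ 1 := by
  have key : ∀ n : ℕ, N ⊓ Subgroup.upperCentralSeries M n ≠ ⊥ →
      ∃ x ∈ N, x ∈ Subgroup.center M ∧ x ≠ 1 := by
    intro n
    induction n with
    | zero =>
      intro h
      exfalso; apply h
      rw [Subgroup.upperCentralSeries_zero, inf_bot_eq]
    | succ n ih =>
      intro h
      by_cases h0 : N ⊓ Subgroup.upperCentralSeries M n = ⊥
      · have hex : ∃ x ∈ N ⊓ Subgroup.upperCentralSeries M (n + 1), x ≠ 1 := by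
          by_contra hcon
          push Not at hcon
          exact h ((Subgroup.eq_bot_iff_forall _).mpr hcon)
        obtain ⟨x, hx, hx1⟩ := hex
        refine ⟨x, hx.1, ?_, hx1⟩
        rw [Subgroup.mem_center_iff]
        intro y
        have h1 : ⁅x, y⁆ ∈ Subgroup.upperCentralSeries M n := (Subgroup.mem_upperCentralSeries_succ_iff.mp hx.2) y
        have h2 : ⁅x, y⁆ ∈ N := by
          rw [commutatorElement_def]
          have h3 : x * y * x⁻¹ * y⁻¹ = x * (y * x⁻¹ * y⁻¹) := by group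
          rw [h3]
          exact N.mul_mem hx.1 (hNn.conj_mem x⁻¹ (N.inv_mem hx.1) y)
        have h3 : ⁅x, y⁆ ∈ N ⊓ Subgroup.upperCentralSeries M n := ⟨h2, h1⟩
        rw [h0, Subgroup.mem_bot] at h3
        exact (commutatorElement_eq_one_iff_mul_comm.mp h3).symm
      · exact ih h0
  obtain ⟨n, hn⟩ := Group.IsNilpotent.nilpotent M
  apply key n
  rw [hn, inf_top_eq]; exact hN

theorem main : CINV.{u} := by
  intro M _ _ hnil hev
  haveI := hnil
  haveI : Fact (Nat.Prime 2) := ⟨Nat.prime_two⟩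
  have h2 : 2 ∣ Nat.card M := even_iff_two_dvd.mp hev
  obtain ⟨P⟩ : Nonempty (Sylow 2 M) := inferInstance
  haveI hPn : (P : Subgroup M).Normal :=
    ((Group.isNilpotent_of_finite_tfae (G := M)).out 0 3 rfl rfl).mp hnil 2 ⟨Nat.prime_two⟩ P
  have hP1 : (P : Subgroup M) ≠ ⊥ := Sylow.ne_bot_of_dvd_card P h2
  obtain ⟨x, hxP, hxc, hx1⟩ := exists_center_of_normal (P : Subgroup M) hP1
  obtain ⟨k, hk⟩ := P.isPGroup' ⟨x, hxP⟩
  have hxk : x ^ 2 ^ k = 1 := by
    have h3 := congrArg Subtype.val hk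
    simpa using h3
  have hd : orderOf x ∣ 2 ^ k := orderOf_dvd_of_pow_eq_one hxk
  obtain ⟨j, hj, hoj⟩ := (Nat.dvd_prime_pow Nat.prime_two).mp hd
  have hj0 : j ≠ 0 := by
    rintro rfl
    rw [pow_zero] at hoj
    exact hx1 (orderOf_eq_one_iff.mp hoj)
  obtain ⟨i, rfl⟩ := Nat.exists_eq_succ_of_ne_zero hj0
  refine ⟨x ^ 2 ^ i, Subgroup.pow_mem _ hxc _, ?_⟩
  rw [orderOf_pow_of_dvd (pow_ne_zero i two_ne_zero)
    (by rw [hoj]; exact pow_dvd_pow 2 (Nat.le_succ i)), hoj, pow_succ]
  exact Nat.mul_div_cancel_left 2 (pow_pos two_pos i)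

end Cfsg.Agent.Lib.Helper62.CTICINV
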