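import Mathlib
import Cfsg.Agent.Lib.Helper30.CTIStmt

set_option autoImplicit false
set_option linter.style.haveILetI false

/-! Piece INVM of S4064: involutions of `N_G(M)` lie in the Hall subgroup `M` of even order. -/

namespace Cfsg.Agent.Lib.Helper62.CTIINVM

open Cfsg Cfsg.Agent.Lib.Helper30.CTIStmt

universe u

theorem main : INVM.{u} := by
  intro G _ _ M hev hhall s hs ho
  have h2M : 2 ∣ Nat.card M := even_iff_two_dvd.mp hev
  have h2i : ¬ 2 ∣ M.index := hhall 2 Nat.prime_two h2M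
  have hle : M ≤ NM M := Subgroup.le_normalizer
  have hrel : ¬ 2 ∣ M.relIndex (NM M) := by
    intro h
    apply h2i
    rw [← Subgroup.relIndex_mul_index hle]
    exact Dvd.dvd.mul_right h _
  haveI : (M.subgroupOf (NM M)).Normal := Subgroup.normal_in_normalizer
  have hmem := Subgroup.pow_index_mem (M.subgroupOf (NM M)) (⟨s, hs⟩ : NM M)
  have hodd : Odd (M.relIndex (NM M)) :=
    Nat.not_even_iff_odd.mp (fun h => hrel (even_iff_two_dvd.mp h))
  obtain ⟨k, hk⟩ := hodd
  have hidx : (M.subgroupOf (NM M)).index = 2 * k + 1 := hk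
  rw [hidx] at hmem
  have hs2 : (⟨s, hs⟩ : NM M) ^ 2 = 1 := by
    apply Subtype.ext
    rw [Subgroup.coe_pow, Subgroup.coe_one, ← ho, pow_orderOf_eq_one]
  rw [pow_succ, pow_mul, hs2, one_pow, one_mul] at hmem
  exact Subgroup.mem_subgroupOf.mp hmem

end Cfsg.Agent.Lib.Helper62.CTIINVM
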