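import Mathlib
import Cfsg.Agent.Lib.Helper30.CTIStmt

set_option autoImplicit false
set_option linter.style.haveILetI false

/-! Piece MCHALL of S4064: a subgroup containing the centralizers of its nonidentity elements is
a Hall subgroup. -/

namespace Cfsg.Agent.Lib.Helper62.CTIMCHALL

open Cfsg Cfsg.Agent.Lib.Helper30.CTIStmt

universe u

theorem main : MCHALL.{u} := by
  intro G _ _ M hcc p hp hpM
  haveI : Fact p.Prime := ⟨hp⟩
  obtain ⟨y', hy'⟩ := exists_prime_orderOf_dvd_card' p hpM
  have hyo : orderOf (y' : G) = p := by rw [Subgroup.orderOf_coe]; exact hy'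
  have hy1 : (y' : G) ≠ 1 := by
    intro h
    rw [h, orderOf_one] at hyo
    exact hp.one_lt.ne hyo
  have hpg : IsPGroup p (Subgroup.zpowers (y' : G)) := by
    apply IsPGroup.of_card (n := 1)
    rw [Nat.card_zpowers, hyo, pow_one]
  obtain ⟨P, hP⟩ := hpg.exists_le_sylow
  have hyP : (y' : G) ∈ (P : Subgroup G) := hP (Subgroup.mem_zpowers _)
  haveI : Nontrivial (P : Subgroup G) :=
    ⟨⟨⟨(y' : G), hyP⟩, 1, fun h => hy1 (congrArg Subtype.val h)⟩⟩
  haveI := IsPGroup.center_nontrivial P.isPGroup'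
  obtain ⟨z, hz1⟩ := exists_ne (1 : Subgroup.center (P : Subgroup G))
  have hzc : ∀ g : (P : Subgroup G), g * (z : (P : Subgroup G)) = (z : (P : Subgroup G)) * g :=
    fun g => Subgroup.mem_center_iff.mp z.2 g
  have hzG1 : ((z : (P : Subgroup G)) : G) ≠ 1 := by
    intro h
    apply hz1
    apply Subtype.ext
    apply Subtype.ext
    exact h
  have hzy : ((z : (P : Subgroup G)) : G) ∈ Subgroup.centralizer ({(y' : G)} : Set G) := by
    rw [Subgroup.mem_centralizer_iff]
    intro t ht
    rw [Set.mem_singleton_iff] at ht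
    rw [ht]
    exact congrArg Subtype.val (hzc ⟨(y' : G), hyP⟩)
  have hzM : ((z : (P : Subgroup G)) : G) ∈ M := hcc _ y'.2 hy1 hzy
  have hPM : (P : Subgroup G) ≤ M := by
    intro g hg
    apply hcc _ hzM hzG1
    rw [Subgroup.mem_centralizer_iff]
    intro t ht
    rw [Set.mem_singleton_iff] at ht
    rw [ht]
    exact (congrArg Subtype.val (hzc ⟨g, hg⟩)).symm
  intro hd
  exact P.not_dvd_index (hd.trans (Subgroup.index_dvd_of_le hPM))

end Cfsg.Agent.Lib.Helper62.CTIMCHALL
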