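import Mathlib
import Cfsg.Agent.Lib.Helper30.CTIStmt

set_option autoImplicit false
set_option linter.style.haveILetI false

/-! Piece N5 of S4064: `N_G(M)` is strongly embedded. -/

namespace Cfsg.Agent.Lib.Helper62.CTIN5

open Cfsg Cfsg.Agent.Lib.Helper30.CTIStmt

universe u

theorem main : N5.{u} := by
  intro G _ _ M hev hti hinv hne
  refine ⟨hne, ?_, ?_⟩
  · have hle : M ≤ NM M := Subgroup.le_normalizer
    exact even_iff_two_dvd.mpr ((even_iff_two_dvd.mp hev).trans (Subgroup.card_dvd_of_le hle))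
  · intro g hg
    by_contra hodd
    have hev2 : Even (Nat.card ↥(NM M ⊓ (NM M).map (MulAut.conj g).toMonoidHom)) :=
      Nat.not_odd_iff_even.mp hodd
    haveI : Fact (Nat.Prime 2) := ⟨Nat.prime_two⟩
    obtain ⟨s', hs'⟩ := exists_prime_orderOf_dvd_card' 2 (even_iff_two_dvd.mp hev2)
    have hso : orderOf (s' : G) = 2 := by rw [Subgroup.orderOf_coe]; exact hs'
    obtain ⟨hsH, h, hhH, hhs⟩ := s'.2
    have hhs' : g * h * g⁻¹ = (s' : G) := hhs
    have hho : orderOf h = 2 := by
      have h2 : orderOf (g * h * g⁻¹) = orderOf h := by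
        have h1 : g * h * g⁻¹ = MulAut.conj g h := by simp [MulAut.conj_apply]
        rw [h1, MulEquiv.orderOf_eq]
      rw [← h2, hhs', hso]
    have hsM : (s' : G) ∈ M := hinv _ hsH hso
    have hhM : h ∈ M := hinv h hhH hho
    have hh1 : h ≠ 1 := by
      intro h1
      rw [h1, orderOf_one] at hho
      exact absurd hho (by norm_num)
    exact hg (hti g h hhM hh1 (by rw [hhs']; exact hsM))

end Cfsg.Agent.Lib.Helper62.CTIN5
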