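import Mathlib
import Cfsg.Agent.Lib.Helper30.CTIStmt

set_option autoImplicit false
set_option linter.style.haveILetI false

/-! Piece QC0 of S4064: `C ⊔ Q` with `C` cyclic of odd order, `Q ≅ QuaternionGroup 1` (cyclic of
order 4), commuting elementwise, is cyclic. -/

namespace Cfsg.Agent.Lib.Helper62.CTIQC0

open Cfsg Cfsg.Agent.Lib.Helper30.CTIStmt

universe u

theorem main : QC0.{u} := by
  intro G _ _ E C Q hE hcomm hCc hCodd ⟨e⟩
  haveI := hCc
  have hQc : IsCyclic Q := by
    haveI := QuaternionGroup.quaternionGroup_one_isCyclic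
    exact isCyclic_of_surjective e.symm e.symm.surjective
  have hQcard : Nat.card Q = 4 := by
    rw [Nat.card_congr e.toEquiv, Nat.card_eq_fintype_card, QuaternionGroup.card, mul_one]
  obtain ⟨c, hc⟩ := IsCyclic.exists_generator (α := C)
  obtain ⟨q, hq⟩ := IsCyclic.exists_generator (α := Q)
  have hco : orderOf (c : G) = Nat.card C := by
    rw [Subgroup.orderOf_coe]; exact orderOf_eq_card_of_forall_mem_zpowers hc
  have hqo : orderOf (q : G) = 4 := by
    rw [Subgroup.orderOf_coe, orderOf_eq_card_of_forall_mem_zpowers hq, hQcard]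
  have hcq : Commute (c : G) (q : G) := hcomm c c.2 q q.2
  have hcop : Nat.Coprime 4 (Nat.card C) := by
    have h1 : Nat.Coprime 2 (Nat.card C) := Nat.coprime_two_left.mpr hCodd
    exact Nat.Coprime.pow_left 2 h1
  have hcmem : (c : G) ∈ Subgroup.zpowers ((c : G) * (q : G)) := by
    have h1 : ((c : G) * (q : G)) ^ 4 = (c : G) ^ 4 := by
      rw [hcq.mul_pow, ← hqo, pow_orderOf_eq_one, mul_one]
    obtain ⟨b, hb⟩ := exists_pow_eq_self_of_coprime (x := (c : G)) (n := 4)
      (by rw [hco]; exact hcop)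
    have h2 : ((c : G) ^ 4) ^ b ∈ Subgroup.zpowers ((c : G) * (q : G)) := by
      rw [← h1]
      exact Subgroup.pow_mem _ (Subgroup.pow_mem _ (Subgroup.mem_zpowers _) _) _
    rw [hb] at h2
    exact h2
  have hqmem : (q : G) ∈ Subgroup.zpowers ((c : G) * (q : G)) := by
    have h1 : ((c : G) * (q : G)) ^ Nat.card C = (q : G) ^ Nat.card C := by
      rw [hcq.mul_pow, ← hco, pow_orderOf_eq_one, one_mul]
    obtain ⟨b, hb⟩ := exists_pow_eq_self_of_coprime (x := (q : G)) (n := Nat.card C)
      (by rw [hqo]; exact hcop.symm)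
    have h2 : ((q : G) ^ Nat.card C) ^ b ∈ Subgroup.zpowers ((c : G) * (q : G)) := by
      rw [← h1]
      exact Subgroup.pow_mem _ (Subgroup.pow_mem _ (Subgroup.mem_zpowers _) _) _
    rw [hb] at h2
    exact h2
  have hCle : C ≤ Subgroup.zpowers ((c : G) * (q : G)) := by
    intro a ha
    obtain ⟨k, hk⟩ := Subgroup.mem_zpowers_iff.mp (hc ⟨a, ha⟩)
    have h3 : (c : G) ^ k = a := by
      have h4 := congrArg Subtype.val hk
      simpa using h4
    rw [← h3]
    exact Subgroup.zpow_mem _ hcmem k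
  have hQle : Q ≤ Subgroup.zpowers ((c : G) * (q : G)) := by
    intro a ha
    obtain ⟨k, hk⟩ := Subgroup.mem_zpowers_iff.mp (hq ⟨a, ha⟩)
    have h3 : (q : G) ^ k = a := by
      have h4 := congrArg Subtype.val hk
      simpa using h4
    rw [← h3]
    exact Subgroup.zpow_mem _ hqmem k
  have hEle : E ≤ Subgroup.zpowers ((c : G) * (q : G)) := by
    rw [← hE]; exact sup_le hCle hQle
  have hmemE : (c : G) * (q : G) ∈ E := by
    rw [← hE]
    exact Subgroup.mul_mem _ (Subgroup.mem_sup_left c.2) (Subgroup.mem_sup_right q.2)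
  have hEq : E = Subgroup.zpowers ((c : G) * (q : G)) :=
    le_antisymm hEle (by rw [Subgroup.zpowers_le]; exact hmemE)
  rw [hEq]
  infer_instance

end Cfsg.Agent.Lib.Helper62.CTIQC0
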