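-- helper62: a product inequality for the fixed points of a `p`-group acting coprimely
-- (consequence of the Brauer–Wielandt formula), used for Casolo's inequality on `p`-elements.
import Mathlib
import Cfsg.Agent.Lib.Helper22.BrauerWielandt

set_option autoImplicit false
set_option linter.style.haveILetI false

namespace Cfsg.Agent.Lib.Helper62.CoprimeProd

open Cfsg.Agent.Lib.Helper22.BrauerWielandt
open Cfsg.Agent.Lib.Helper31.CoprimeGen
open Cfsg.Agent.Lib.Helper31.InvSylow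
open Cfsg.Agent.Lib.Helper24

universe u

variable {X : Type u} [Group X]

theorem conj_mul (a b s : X) : (a * b) * s * (a * b)⁻¹ = a * (b * s * b⁻¹) * a⁻¹ := by group

theorem conj_pow_eq_of_conj_eq (d s : X) (k : ℕ) (h : d * s * d⁻¹ = s) :
    d ^ k * s * (d ^ k)⁻¹ = s := by
  have hc : Commute d s := mul_inv_eq_iff_eq_mul.mp h
  exact mul_inv_eq_iff_eq_mul.mpr (hc.pow_left k).eq

theorem card_eq_inf_mul_relIndex (H K : Subgroup X) :
    Nat.card ↥K = Nat.card ↥(K ⊓ H) * H.relIndex K := by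
  rw [← Subgroup.relIndex_bot_left, ← Subgroup.relIndex_bot_left (K ⊓ H),
    ← Subgroup.inf_relIndex_left K H,
    Subgroup.relIndex_mul_relIndex _ _ _ bot_le inf_le_left]

/-- Inequality form of Brauer–Wielandt for a `q`-subgroup `S` on which `y`, `z` act by commuting
automorphisms with `z` of order dividing `p` (no assumption on the order of `y`). -/
theorem ci_qsubgroup [Finite X] {p : ℕ} [Fact p.Prime] (q : ℕ) [Fact q.Prime] (S : Subgroup X)
    (hSq : IsPGroup q S) (hS : ¬ p ∣ Nat.card S) (y z : X)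
    (hyS : ∀ s ∈ S, y * s * y⁻¹ ∈ S) (hzS : ∀ s ∈ S, z * s * z⁻¹ ∈ S)
    (h1 : ∀ s ∈ S, (y * z) * s * (y * z)⁻¹ = (z * y) * s * (z * y)⁻¹)
    (h2 : ∀ s ∈ S, z ^ p * s * (z ^ p)⁻¹ = s)
    (h3 : ∀ s ∈ S, (y ^ p * z) * s * (y ^ p * z)⁻¹ = (z * y ^ p) * s * (z * y ^ p)⁻¹)
    (h4 : ∀ j : ℕ, ∀ s ∈ S,
      (y * z ^ j) ^ p * s * ((y * z ^ j) ^ p)⁻¹ = y ^ p * s * (y ^ p)⁻¹) :
    Nat.card ↥(S ⊓ Subgroup.centralizer {z})
        * ∏ j ∈ Finset.range p, Nat.card ↥(S ⊓ Subgroup.centralizer {y * z ^ j})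
      ≤ Nat.card S
        * Nat.card ↥(S ⊓ Subgroup.centralizer {z} ⊓ Subgroup.centralizer {y}) ^ p := by
  obtain ⟨S₂, hS₂⟩ : ∃ S₂ : Subgroup X, S₂ = S ⊓ Subgroup.centralizer {y ^ p} := ⟨_, rfl⟩
  have hS₂S : S₂ ≤ S := by rw [hS₂]; exact inf_le_left
  have hmemS₂ : ∀ s, s ∈ S₂ ↔ s ∈ S ∧ y ^ p * s * (y ^ p)⁻¹ = s := by
    intro s
    rw [hS₂, Subgroup.mem_inf, conj_eq_iff_mem_centralizer]
  have hyS₂ : ∀ s ∈ S₂, y * s * y⁻¹ ∈ S₂ := by
    intro s hs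
    obtain ⟨hs1, hs2⟩ := (hmemS₂ s).mp hs
    refine (hmemS₂ _).mpr ⟨hyS s hs1, ?_⟩
    have hc : y ^ p * y = y * y ^ p := (Commute.pow_self y p).eq
    calc y ^ p * (y * s * y⁻¹) * (y ^ p)⁻¹
        = (y ^ p * y) * s * (y ^ p * y)⁻¹ := (conj_mul _ _ _).symm
      _ = (y * y ^ p) * s * (y * y ^ p)⁻¹ := by rw [hc]
      _ = y * (y ^ p * s * (y ^ p)⁻¹) * y⁻¹ := conj_mul _ _ _
      _ = y * s * y⁻¹ := by rw [hs2]
  have hzS₂ : ∀ s ∈ S₂, z * s * z⁻¹ ∈ S₂ := by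
    intro s hs
    obtain ⟨hs1, hs2⟩ := (hmemS₂ s).mp hs
    refine (hmemS₂ _).mpr ⟨hzS s hs1, ?_⟩
    calc y ^ p * (z * s * z⁻¹) * (y ^ p)⁻¹
        = (y ^ p * z) * s * (y ^ p * z)⁻¹ := (conj_mul _ _ _).symm
      _ = (z * y ^ p) * s * (z * y ^ p)⁻¹ := h3 s hs1
      _ = z * (y ^ p * s * (y ^ p)⁻¹) * z⁻¹ := conj_mul _ _ _
      _ = z * s * z⁻¹ := by rw [hs2]
  have hyN : y ∈ Subgroup.normalizer (S₂ : Set X) := mem_normalizer_of_conj_mem S₂ y hyS₂
  have hzN : z ∈ Subgroup.normalizer (S₂ : Set X) := mem_normalizer_of_conj_mem S₂ z hzS₂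
  set φ := ConjAction.conjHom (Subgroup.normalizer (S₂ : Set X)) S₂ le_rfl with hφ
  have hpow : ∀ (d : X) (hd : d ∈ Subgroup.normalizer (S₂ : Set X)) (k : ℕ),
      φ ⟨d, hd⟩ ^ k = φ ⟨d ^ k, pow_mem hd k⟩ := by
    intro d hd k
    rw [← map_pow]
    rfl
  have hone : ∀ (d : X) (hd : d ∈ Subgroup.normalizer (S₂ : Set X)),
      (∀ s ∈ S₂, d * s * d⁻¹ = s) → φ ⟨d, hd⟩ = 1 := by
    intro d hd h
    apply MulEquiv.ext
    intro s
    apply Subtype.ext
    exact h s s.2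
  have hαβ : Commute (φ ⟨y, hyN⟩) (φ ⟨z, hzN⟩) := by
    show φ ⟨y, hyN⟩ * φ ⟨z, hzN⟩ = φ ⟨z, hzN⟩ * φ ⟨y, hyN⟩
    apply MulEquiv.ext
    intro s
    apply Subtype.ext
    show y * (z * (s : X) * z⁻¹) * y⁻¹ = z * (y * (s : X) * y⁻¹) * z⁻¹
    calc y * (z * (s : X) * z⁻¹) * y⁻¹ = (y * z) * s * (y * z)⁻¹ := (conj_mul _ _ _).symm
      _ = (z * y) * s * (z * y)⁻¹ := h1 s (hS₂S s.2)
      _ = z * (y * (s : X) * y⁻¹) * z⁻¹ := conj_mul _ _ _
  have hα : (φ ⟨y, hyN⟩) ^ p = 1 := by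
    rw [hpow]
    exact hone _ _ (fun s hs => ((hmemS₂ s).mp hs).2)
  have hβ : (φ ⟨z, hzN⟩) ^ p = 1 := by
    rw [hpow]
    exact hone _ _ (fun s hs => h2 s (hS₂S hs))
  have hS₂q : IsPGroup q ↥S₂ := hSq.to_le hS₂S
  have hS₂p : ¬ p ∣ Nat.card ↥S₂ := fun h => hS (h.trans (Subgroup.card_dvd_of_le hS₂S))
  have key := bw_pgroup_aux (p := p) q (Nat.card ↥S₂) ↥S₂ rfl hS₂q hS₂p _ _ hαβ hα hβ
  have hmem : ∀ (d : X) (hd : d ∈ Subgroup.normalizer (S₂ : Set X)) (x : ↥S₂),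
      x ∈ fixSub (φ ⟨d, hd⟩) ↔ (x : X) ∈ Subgroup.centralizer ({d} : Set X) := by
    intro d hd x
    rw [mem_fixSub, ← conj_eq_iff_mem_centralizer, Subtype.ext_iff]
    rfl
  have hfixz : Nat.card ↥(fixSub (φ ⟨z, hzN⟩)) = Nat.card ↥(S₂ ⊓ Subgroup.centralizer {z}) := by
    refine card_eq_of_mem_iff _ _ inf_le_left ?_
    intro x
    rw [hmem z hzN x, Subgroup.mem_inf]
    exact ⟨fun h => ⟨x.2, h⟩, fun h => h.2⟩
  have hfix2 : Nat.card ↥(fixSub (φ ⟨y, hyN⟩) ⊓ fixSub (φ ⟨z, hzN⟩))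
      = Nat.card ↥(S ⊓ Subgroup.centralizer {z} ⊓ Subgroup.centralizer {y}) := by
    refine card_eq_of_mem_iff _ _ ?_ ?_
    · intro s hs
      obtain ⟨hs1, hs2⟩ := Subgroup.mem_inf.mp hs
      obtain ⟨hs3, -⟩ := Subgroup.mem_inf.mp hs1
      exact (hmemS₂ s).mpr ⟨hs3,
        conj_pow_eq_of_conj_eq y s p ((conj_eq_iff_mem_centralizer y s).mpr hs2)⟩
    · intro x
      rw [Subgroup.mem_inf, hmem y hyN x, hmem z hzN x, Subgroup.mem_inf, Subgroup.mem_inf]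
      exact ⟨fun h => ⟨⟨hS₂S x.2, h.2⟩, h.1⟩, fun h => ⟨h.2, h.1.2⟩⟩
  have hmul : ∀ j : ℕ, φ ⟨y, hyN⟩ * φ ⟨z, hzN⟩ ^ j
      = φ ⟨y * z ^ j, mul_mem hyN (pow_mem hzN j)⟩ := by
    intro j
    rw [← map_pow, ← map_mul]
    rfl
  have hfixj : ∀ j : ℕ, Nat.card ↥(fixSub (φ ⟨y, hyN⟩ * φ ⟨z, hzN⟩ ^ j))
      = Nat.card ↥(S ⊓ Subgroup.centralizer {y * z ^ j}) := by
    intro j
    rw [hmul j]
    refine card_eq_of_mem_iff _ _ ?_ ?_
    · intro s hs
      obtain ⟨hs1, hs2⟩ := Subgroup.mem_inf.mp hs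
      exact (hmemS₂ s).mpr ⟨hs1, (h4 j s hs1).symm.trans
        (conj_pow_eq_of_conj_eq (y * z ^ j) s p ((conj_eq_iff_mem_centralizer _ s).mpr hs2))⟩
    · intro x
      rw [hmem _ _ x, Subgroup.mem_inf]
      exact ⟨fun h => ⟨hS₂S x.2, h⟩, fun h => h.2⟩
  rw [hfix2, hfixz, Finset.prod_congr rfl (fun j _ => hfixj j)] at key
  -- index inequality
  have hidx : Nat.card ↥(S ⊓ Subgroup.centralizer {z}) * Nat.card ↥S₂
      ≤ Nat.card ↥S * Nat.card ↥(S₂ ⊓ Subgroup.centralizer {z}) := by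
    have e1 := card_eq_inf_mul_relIndex (Subgroup.centralizer ({z} : Set X)) S₂
    have e2 := card_eq_inf_mul_relIndex (Subgroup.centralizer ({z} : Set X)) S
    have hne : (Subgroup.centralizer ({z} : Set X)).relIndex S ≠ 0 := by
      intro h0
      have h := Subgroup.relIndex_dvd_card (Subgroup.centralizer ({z} : Set X)) S
      rw [h0] at h
      exact Nat.card_pos.ne' (Nat.eq_zero_of_zero_dvd h)
    have e3 : (Subgroup.centralizer ({z} : Set X)).relIndex S₂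
        ≤ (Subgroup.centralizer ({z} : Set X)).relIndex S :=
      Subgroup.relIndex_le_of_le_right hS₂S hne
    calc Nat.card ↥(S ⊓ Subgroup.centralizer {z}) * Nat.card ↥S₂
        = Nat.card ↥(S ⊓ Subgroup.centralizer {z})
            * (Nat.card ↥(S₂ ⊓ Subgroup.centralizer {z})
              * (Subgroup.centralizer ({z} : Set X)).relIndex S₂) := by rw [← e1]
      _ ≤ Nat.card ↥(S ⊓ Subgroup.centralizer {z})
            * (Nat.card ↥(S₂ ⊓ Subgroup.centralizer {z})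
              * (Subgroup.centralizer ({z} : Set X)).relIndex S) :=
          Nat.mul_le_mul_left _ (Nat.mul_le_mul_left _ e3)
      _ = (Nat.card ↥(S ⊓ Subgroup.centralizer {z})
            * (Subgroup.centralizer ({z} : Set X)).relIndex S)
            * Nat.card ↥(S₂ ⊓ Subgroup.centralizer {z}) := by ring
      _ = Nat.card ↥S * Nat.card ↥(S₂ ⊓ Subgroup.centralizer {z}) := by rw [← e2]
  have hb₂pos : 0 < Nat.card ↥(S₂ ⊓ Subgroup.centralizer {z}) := Nat.card_pos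
  apply Nat.le_of_mul_le_mul_right _ hb₂pos
  calc Nat.card ↥(S ⊓ Subgroup.centralizer {z})
        * (∏ j ∈ Finset.range p, Nat.card ↥(S ⊓ Subgroup.centralizer {y * z ^ j}))
        * Nat.card ↥(S₂ ⊓ Subgroup.centralizer {z})
      = Nat.card ↥(S ⊓ Subgroup.centralizer {z})
        * (Nat.card ↥(S₂ ⊓ Subgroup.centralizer {z})
          * ∏ j ∈ Finset.range p, Nat.card ↥(S ⊓ Subgroup.centralizer {y * z ^ j})) := by ring
    _ = Nat.card ↥(S ⊓ Subgroup.centralizer {z})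
        * (Nat.card ↥S₂
          * Nat.card ↥(S ⊓ Subgroup.centralizer {z} ⊓ Subgroup.centralizer {y}) ^ p) := by
        rw [key]
    _ = (Nat.card ↥(S ⊓ Subgroup.centralizer {z}) * Nat.card ↥S₂)
        * Nat.card ↥(S ⊓ Subgroup.centralizer {z} ⊓ Subgroup.centralizer {y}) ^ p := by ring
    _ ≤ (Nat.card ↥S * Nat.card ↥(S₂ ⊓ Subgroup.centralizer {z}))
        * Nat.card ↥(S ⊓ Subgroup.centralizer {z} ⊓ Subgroup.centralizer {y}) ^ p :=
        Nat.mul_le_mul_right _ hidx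
    _ = Nat.card ↥S
        * Nat.card ↥(S ⊓ Subgroup.centralizer {z} ⊓ Subgroup.centralizer {y}) ^ p
        * Nat.card ↥(S₂ ⊓ Subgroup.centralizer {z}) := by ring

/-- Inequality form of Brauer–Wielandt for a `p'`-subgroup `V` normalized by a `p`-subgroup `Q`,
for two elements `y, z ∈ Q` acting on `V` by commuting automorphisms, `z` of order dividing `p`. -/
theorem ci_amb [Finite X] {p : ℕ} [Fact p.Prime] (Q V : Subgroup X) (hQ : IsPGroup p Q)
    (hV : ¬ p ∣ Nat.card V) (hQV : ∀ e ∈ Q, ∀ k ∈ V, e * k * e⁻¹ ∈ V) (y z : X) (hy : y ∈ Q)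
    (hz : z ∈ Q)
    (h1 : ∀ s ∈ V, (y * z) * s * (y * z)⁻¹ = (z * y) * s * (z * y)⁻¹)
    (h2 : ∀ s ∈ V, z ^ p * s * (z ^ p)⁻¹ = s)
    (h3 : ∀ s ∈ V, (y ^ p * z) * s * (y ^ p * z)⁻¹ = (z * y ^ p) * s * (z * y ^ p)⁻¹)
    (h4 : ∀ j : ℕ, ∀ s ∈ V,
      (y * z ^ j) ^ p * s * ((y * z ^ j) ^ p)⁻¹ = y ^ p * s * (y ^ p)⁻¹) :
    Nat.card ↥(V ⊓ Subgroup.centralizer {z})
        * ∏ j ∈ Finset.range p, Nat.card ↥(V ⊓ Subgroup.centralizer {y * z ^ j})
      ≤ Nat.card V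
        * Nat.card ↥(V ⊓ Subgroup.centralizer {z} ⊓ Subgroup.centralizer {y}) ^ p := by
  classical
  have hpos : ∀ L : Subgroup X, Nat.card L ≠ 0 := fun L => Nat.card_pos.ne'
  have hprodne : ∏ j ∈ Finset.range p, Nat.card ↥(V ⊓ Subgroup.centralizer {y * z ^ j}) ≠ 0 :=
    Finset.prod_ne_zero_iff.mpr (fun j _ => hpos _)
  have hL : Nat.card ↥(V ⊓ Subgroup.centralizer {z})
        * ∏ j ∈ Finset.range p, Nat.card ↥(V ⊓ Subgroup.centralizer {y * z ^ j}) ≠ 0 :=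
    mul_ne_zero (hpos _) hprodne
  have hR : Nat.card V
      * Nat.card ↥(V ⊓ Subgroup.centralizer {z} ⊓ Subgroup.centralizer {y}) ^ p ≠ 0 :=
    mul_ne_zero (hpos _) (pow_ne_zero _ (hpos _))
  apply Nat.le_of_dvd (Nat.pos_of_ne_zero hR)
  rw [← Nat.factorization_prime_le_iff_dvd hL hR]
  intro q hq
  haveI : Fact q.Prime := ⟨hq⟩
  obtain ⟨S, hSV, hSc, hSQ⟩ := exists_invariant_sylow Q V hQ hV hQV q
  have hSq : IsPGroup q S := IsPGroup.of_card hSc
  have hSp : ¬ p ∣ Nat.card S := fun h => hV (h.trans (Subgroup.card_dvd_of_le hSV))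
  have hzp : ∀ d ∈ Q, IsPGroup p (Subgroup.zpowers d) :=
    fun d hd => hQ.to_le (Subgroup.zpowers_le.mpr hd)
  have f1 : ∀ d ∈ Q, Nat.card ↥(S ⊓ Subgroup.centralizer {d})
      = q ^ (Nat.card ↥(V ⊓ Subgroup.centralizer {d})).factorization q :=
    fun d hd => card_sylow_fix q V S d (hzp d hd) hV (hQV d hd) hSV hSc (hSQ d hd)
  have hinv : ∀ L : Subgroup X, L ≤ V → (∀ l ∈ L, y * l * y⁻¹ ∈ L) →
      ∀ l ∈ L ⊓ Subgroup.centralizer {z}, y * l * y⁻¹ ∈ L ⊓ Subgroup.centralizer {z} := by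
    intro L hLV hLy l hl
    obtain ⟨hl1, hl2⟩ := Subgroup.mem_inf.mp hl
    refine Subgroup.mem_inf.mpr ⟨hLy l hl1, ?_⟩
    rw [← conj_eq_iff_mem_centralizer] at hl2 ⊢
    calc z * (y * l * y⁻¹) * z⁻¹ = (z * y) * l * (z * y)⁻¹ := (conj_mul _ _ _).symm
      _ = (y * z) * l * (y * z)⁻¹ := (h1 l (hLV hl1)).symm
      _ = y * (z * l * z⁻¹) * y⁻¹ := conj_mul _ _ _
      _ = y * l * y⁻¹ := by rw [hl2]
  have f2 : Nat.card ↥(S ⊓ Subgroup.centralizer {z} ⊓ Subgroup.centralizer {y})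
      = q ^ (Nat.card ↥(V ⊓ Subgroup.centralizer {z}
          ⊓ Subgroup.centralizer {y})).factorization q := by
    apply card_sylow_fix q (V ⊓ Subgroup.centralizer {z}) (S ⊓ Subgroup.centralizer {z}) y
      (hzp y hy)
    · exact fun h => hV (h.trans (Subgroup.card_dvd_of_le inf_le_left))
    · exact hinv V le_rfl (hQV y hy)
    · exact inf_le_inf_right _ hSV
    · exact f1 z hz
    · exact hinv S hSV (hSQ y hy)
  have hci := ci_qsubgroup (p := p) q S hSq hSp y z (hSQ y hy) (hSQ z hz)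
    (fun s hs => h1 s (hSV hs)) (fun s hs => h2 s (hSV hs)) (fun s hs => h3 s (hSV hs))
    (fun j s hs => h4 j s (hSV hs))
  have f3 : ∀ j ∈ Finset.range p, Nat.card ↥(S ⊓ Subgroup.centralizer {y * z ^ j})
      = q ^ (Nat.card ↥(V ⊓ Subgroup.centralizer {y * z ^ j})).factorization q :=
    fun j _ => f1 _ (mul_mem hy (pow_mem hz j))
  rw [hSc, f2, f1 z hz, Finset.prod_congr rfl f3, Finset.prod_pow_eq_pow_sum, ← pow_mul,
    ← pow_add, ← pow_add] at hci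
  have hexp := (Nat.pow_le_pow_iff_right hq.one_lt).mp hci
  rw [Nat.factorization_mul (hpos _) hprodne, Nat.factorization_prod (fun j _ => hpos _),
    Nat.factorization_mul (hpos _) (pow_ne_zero _ (hpos _)), Nat.factorization_pow]
  simp only [Finsupp.add_apply, Finsupp.smul_apply, Finsupp.finsetSum_apply, smul_eq_mul]
  linarith

/-- In a nontrivial image of a finite `p`-group there is a central element of order `p`. -/
theorem exists_central_elt {p : ℕ} [Fact p.Prime] {Q₀ : Type*} [Group Q₀] [Finite Q₀]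
    (hQ₀ : IsPGroup p Q₀) {A : Type*} [Group A] (ψ : Q₀ →* A) (hne : ∃ x, ψ x ≠ 1) :
    ∃ z : Q₀, ψ z ≠ 1 ∧ ψ z ^ p = 1 ∧ ∀ y, Commute (ψ y) (ψ z) := by
  haveI : Finite ↥ψ.range := Finite.of_surjective ψ.rangeRestrict ψ.rangeRestrict_surjective
  have hR : IsPGroup p ↥ψ.range := hQ₀.of_surjective ψ.rangeRestrict ψ.rangeRestrict_surjective
  obtain ⟨x, hx⟩ := hne
  haveI : Nontrivial ↥ψ.range :=
    ⟨⟨⟨ψ x, ⟨x, rfl⟩⟩, 1, fun h => hx (congrArg Subtype.val h)⟩⟩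
  haveI hZ : Nontrivial ↥(Subgroup.center ↥ψ.range) := hR.center_nontrivial
  have hZp : IsPGroup p ↥(Subgroup.center ↥ψ.range) := hR.to_subgroup _
  have hdvd : p ∣ Nat.card ↥(Subgroup.center ↥ψ.range) := by
    rcases hZp.card_eq_or_dvd with h | h
    · exact absurd h (Finite.one_lt_card).ne'
    · exact h
  obtain ⟨c, hc⟩ := exists_prime_orderOf_dvd_card' p hdvd
  obtain ⟨z, hz⟩ : ∃ z, ψ z = ((c : ↥ψ.range) : A) := (c : ↥ψ.range).2
  refine ⟨z, ?_, ?_, ?_⟩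
  · intro h
    have h1 : c = 1 := Subtype.ext (Subtype.ext (by rw [← hz, h]; rfl))
    rw [h1, orderOf_one] at hc
    exact (Fact.out : p.Prime).one_lt.ne hc
  · have h1 : c ^ p = 1 := by rw [← hc]; exact pow_orderOf_eq_one c
    have h2 : (((c ^ p : ↥(Subgroup.center ↥ψ.range)) : ↥ψ.range) : A) = 1 := by rw [h1]; rfl
    rw [hz]
    exact h2
  · intro y
    have h1 := Subgroup.mem_center_iff.mp c.2 ⟨ψ y, ⟨y, rfl⟩⟩
    have h2 := congrArg Subtype.val h1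
    rw [hz]
    exact h2

/-- **Product inequality for coprime action of a `p`-group.**  If the finite `p`-group `Q₀` acts
(through `φ : Q₀ →* X` and conjugation) on the `p'`-subgroup `V`, then
`∏_{x ∈ Q₀} |C_V(x)|^p ≤ |V|^{|Q₀|} * |C_V(Q₀)|^{(p-1)|Q₀|}`. -/
theorem key_ineq [Finite X] {p : ℕ} [Fact p.Prime] {Q₀ : Type*} [Group Q₀] [Fintype Q₀]
    (hQ₀ : IsPGroup p Q₀) (φ : Q₀ →* X) :
    ∀ (n : ℕ) (V : Subgroup X), Nat.card V = n → ¬ p ∣ Nat.card V →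
      (∀ x : Q₀, ∀ v ∈ V, φ x * v * (φ x)⁻¹ ∈ V) →
      ∏ x : Q₀, Nat.card ↥(V ⊓ Subgroup.centralizer {φ x}) ^ p ≤
        Nat.card V ^ Fintype.card Q₀ *
          Nat.card ↥(V ⊓ Subgroup.centralizer (Set.range φ)) ^ ((p - 1) * Fintype.card Q₀) := by
  intro n
  induction n using Nat.strong_induction_on with
  | _ n ih =>
  intro V hn hV hinv
  subst hn
  by_cases htriv : ∀ x : Q₀, ∀ v ∈ V, φ x * v * (φ x)⁻¹ = v
  · have e1 : ∀ x : Q₀, V ⊓ Subgroup.centralizer {φ x} = V := by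
      intro x
      apply inf_eq_left.mpr
      intro v hv
      exact (conj_eq_iff_mem_centralizer (φ x) v).mp (htriv x v hv)
    have e2 : V ⊓ Subgroup.centralizer (Set.range φ) = V := by
      apply inf_eq_left.mpr
      intro v hv
      rw [Subgroup.mem_centralizer_iff]
      rintro _ ⟨x, rfl⟩
      exact mul_inv_eq_iff_eq_mul.mp (htriv x v hv)
    have hexp : p * Fintype.card Q₀ = Fintype.card Q₀ + (p - 1) * Fintype.card Q₀ := by
      have h1 : p - 1 + 1 = p := Nat.sub_add_cancel (Fact.out : p.Prime).one_lt.le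
      calc p * Fintype.card Q₀ = (p - 1 + 1) * Fintype.card Q₀ := by rw [h1]
        _ = Fintype.card Q₀ + (p - 1) * Fintype.card Q₀ := by ring
    simp only [e1, e2]
    rw [Finset.prod_const, Finset.card_univ, ← pow_mul, ← pow_add, hexp]
  · have hQN : ∀ x : Q₀, φ x ∈ Subgroup.normalizer (V : Set X) :=
      fun x => mem_normalizer_of_conj_mem V (φ x) (hinv x)
    obtain ⟨ψ, hψ⟩ : ∃ ψ : Q₀ →* MulAut ↥V,
        ∀ (x : Q₀) (v : ↥V), ((ψ x v : ↥V) : X) = φ x * v * (φ x)⁻¹ :=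
      ⟨(ConjAction.conjHom (Subgroup.normalizer (V : Set X)) V le_rfl).comp
          (φ.codRestrict (Subgroup.normalizer (V : Set X)) hQN), fun x v => rfl⟩
    have hne : ∃ x, ψ x ≠ 1 := by
      by_contra hcon
      apply htriv
      intro x v hv
      have h1 : ψ x = 1 := by
        by_contra h
        exact hcon ⟨x, h⟩
      have h2 := hψ x ⟨v, hv⟩
      rw [h1] at h2
      exact h2.symm
    obtain ⟨z, hz1, hzp, hzc⟩ := exists_central_elt hQ₀ ψ hne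
    have helt : ∀ g h : Q₀, ψ g = ψ h →
        ∀ s ∈ V, φ g * s * (φ g)⁻¹ = φ h * s * (φ h)⁻¹ := by
      intro g h e s hs
      have h1 := hψ g ⟨s, hs⟩
      have h2 := hψ h ⟨s, hs⟩
      rw [e] at h1
      exact h1.symm.trans h2
    have H1 : ∀ y : Q₀, ∀ s ∈ V,
        (φ y * φ z) * s * (φ y * φ z)⁻¹ = (φ z * φ y) * s * (φ z * φ y)⁻¹ := by
      intro y s hs
      have h := helt (y * z) (z * y) (by rw [map_mul, map_mul]; exact (hzc y).eq) s hs
      simp only [map_mul] at h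
      exact h
    have H2 : ∀ s ∈ V, (φ z) ^ p * s * ((φ z) ^ p)⁻¹ = s := by
      intro s hs
      have h := helt (z ^ p) 1 (by rw [map_pow, hzp, map_one]) s hs
      simp only [map_pow, map_one, one_mul, inv_one, mul_one] at h
      exact h
    have H3 : ∀ y : Q₀, ∀ s ∈ V, ((φ y) ^ p * φ z) * s * ((φ y) ^ p * φ z)⁻¹
        = (φ z * (φ y) ^ p) * s * (φ z * (φ y) ^ p)⁻¹ := by
      intro y s hs
      have h := helt (y ^ p * z) (z * y ^ p)
        (by rw [map_mul, map_mul, map_pow]; exact ((hzc y).pow_left p).eq) s hs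
      simp only [map_mul, map_pow] at h
      exact h
    have H4 : ∀ y : Q₀, ∀ j : ℕ, ∀ s ∈ V,
        (φ y * (φ z) ^ j) ^ p * s * ((φ y * (φ z) ^ j) ^ p)⁻¹
          = (φ y) ^ p * s * ((φ y) ^ p)⁻¹ := by
      intro y j s hs
      have h := helt ((y * z ^ j) ^ p) (y ^ p)
        (by
          rw [map_pow, map_mul, map_pow, map_pow, ((hzc y).pow_right j).mul_pow, ← pow_mul,
            mul_comm j p, pow_mul, hzp, one_pow, mul_one]) s hs
      simp only [map_mul, map_pow] at h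
      exact h
    have hQp : IsPGroup p ↥φ.range :=
      hQ₀.of_surjective φ.rangeRestrict φ.rangeRestrict_surjective
    have hQV : ∀ e ∈ φ.range, ∀ k ∈ V, e * k * e⁻¹ ∈ V := by
      rintro _ ⟨x, rfl⟩ k hk
      exact hinv x k hk
    obtain ⟨V', hV'⟩ : ∃ V' : Subgroup X, V' = V ⊓ Subgroup.centralizer {φ z} := ⟨_, rfl⟩
    have hV'V : V' ≤ V := by rw [hV']; exact inf_le_left
    have hstep : ∀ y : Q₀, Nat.card ↥V'
          * ∏ j ∈ Finset.range p, Nat.card ↥(V ⊓ Subgroup.centralizer {φ (y * z ^ j)})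
        ≤ Nat.card ↥V * Nat.card ↥(V' ⊓ Subgroup.centralizer {φ y}) ^ p := by
      intro y
      have h := ci_amb (p := p) φ.range V hQp hV hQV (φ y) (φ z) ⟨y, rfl⟩ ⟨z, rfl⟩ (H1 y) H2
        (H3 y) (H4 y)
      rw [hV']
      simp only [map_mul, map_pow]
      exact h
    have hprod : ∏ y : Q₀, (Nat.card ↥V'
          * ∏ j ∈ Finset.range p, Nat.card ↥(V ⊓ Subgroup.centralizer {φ (y * z ^ j)}))
        ≤ ∏ y : Q₀, (Nat.card ↥V * Nat.card ↥(V' ⊓ Subgroup.centralizer {φ y}) ^ p) :=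
      Finset.prod_le_prod (fun _ _ => Nat.zero_le _) (fun y _ => hstep y)
    have hL : ∏ y : Q₀, (Nat.card ↥V'
          * ∏ j ∈ Finset.range p, Nat.card ↥(V ⊓ Subgroup.centralizer {φ (y * z ^ j)}))
        = Nat.card ↥V' ^ Fintype.card Q₀
          * ∏ y : Q₀, Nat.card ↥(V ⊓ Subgroup.centralizer {φ y}) ^ p := by
      rw [Finset.prod_mul_distrib, Finset.prod_const, Finset.card_univ, Finset.prod_comm]
      congr 1
      rw [Finset.prod_pow]
      have hre : ∀ j ∈ Finset.range p,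
          ∏ y : Q₀, Nat.card ↥(V ⊓ Subgroup.centralizer {φ (y * z ^ j)})
            = ∏ y : Q₀, Nat.card ↥(V ⊓ Subgroup.centralizer {φ y}) := by
        intro j _
        exact Fintype.prod_equiv (Equiv.mulRight (z ^ j)) _ _ (fun y => rfl)
      rw [Finset.prod_congr rfl hre, Finset.prod_const, Finset.card_range]
    have hR : ∏ y : Q₀, (Nat.card ↥V * Nat.card ↥(V' ⊓ Subgroup.centralizer {φ y}) ^ p)
        = Nat.card ↥V ^ Fintype.card Q₀
          * ∏ y : Q₀, Nat.card ↥(V' ⊓ Subgroup.centralizer {φ y}) ^ p := by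
      rw [Finset.prod_mul_distrib, Finset.prod_const, Finset.card_univ]
    have hV'lt : Nat.card ↥V' < Nat.card ↥V := by
      apply lt_of_le_of_ne (Subgroup.card_le_of_le hV'V)
      intro hcard
      have heq : V' = V := Subgroup.eq_of_le_of_card_ge hV'V hcard.ge
      apply hz1
      apply MulEquiv.ext
      intro v
      apply Subtype.ext
      rw [hψ z v]
      have hv : (v : X) ∈ V' := by rw [heq]; exact v.2
      rw [hV'] at hv
      exact (conj_eq_iff_mem_centralizer (φ z) v).mpr (Subgroup.mem_inf.mp hv).2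
    have hV'p : ¬ p ∣ Nat.card ↥V' :=
      fun h => hV (h.trans (Subgroup.card_dvd_of_le hV'V))
    have hV'inv : ∀ x : Q₀, ∀ v ∈ V', φ x * v * (φ x)⁻¹ ∈ V' := by
      intro x v hv
      rw [hV'] at hv ⊢
      obtain ⟨hv1, hv2⟩ := Subgroup.mem_inf.mp hv
      refine Subgroup.mem_inf.mpr ⟨hinv x v hv1, ?_⟩
      rw [← conj_eq_iff_mem_centralizer] at hv2 ⊢
      calc φ z * (φ x * v * (φ x)⁻¹) * (φ z)⁻¹
          = (φ z * φ x) * v * (φ z * φ x)⁻¹ := (conj_mul _ _ _).symm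
        _ = (φ x * φ z) * v * (φ x * φ z)⁻¹ := (H1 x v hv1).symm
        _ = φ x * (φ z * v * (φ z)⁻¹) * (φ x)⁻¹ := conj_mul _ _ _
        _ = φ x * v * (φ x)⁻¹ := by rw [hv2]
    have hIH := ih (Nat.card ↥V') hV'lt V' rfl hV'p hV'inv
    have e3 : V' ⊓ Subgroup.centralizer (Set.range φ)
        = V ⊓ Subgroup.centralizer (Set.range φ) := by
      rw [hV', inf_assoc, inf_eq_right.mpr
        (Subgroup.centralizer_le (Set.singleton_subset_iff.mpr (Set.mem_range_self z)))]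
    rw [e3] at hIH
    have hV'pos : 0 < Nat.card ↥V' ^ Fintype.card Q₀ := pow_pos Nat.card_pos _
    apply Nat.le_of_mul_le_mul_left _ hV'pos
    calc Nat.card ↥V' ^ Fintype.card Q₀
          * ∏ x : Q₀, Nat.card ↥(V ⊓ Subgroup.centralizer {φ x}) ^ p
        = ∏ y : Q₀, (Nat.card ↥V'
          * ∏ j ∈ Finset.range p, Nat.card ↥(V ⊓ Subgroup.centralizer {φ (y * z ^ j)})) :=
          hL.symm
      _ ≤ ∏ y : Q₀, (Nat.card ↥V * Nat.card ↥(V' ⊓ Subgroup.centralizer {φ y}) ^ p) := hprod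
      _ = Nat.card ↥V ^ Fintype.card Q₀
          * ∏ y : Q₀, Nat.card ↥(V' ⊓ Subgroup.centralizer {φ y}) ^ p := hR
      _ ≤ Nat.card ↥V ^ Fintype.card Q₀ * (Nat.card ↥V' ^ Fintype.card Q₀
          * Nat.card ↥(V ⊓ Subgroup.centralizer (Set.range φ))
            ^ ((p - 1) * Fintype.card Q₀)) := Nat.mul_le_mul_left _ hIH
      _ = Nat.card ↥V' ^ Fintype.card Q₀ * (Nat.card ↥V ^ Fintype.card Q₀
          * Nat.card ↥(V ⊓ Subgroup.centralizer (Set.range φ))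
            ^ ((p - 1) * Fintype.card Q₀)) := by ring

end Cfsg.Agent.Lib.Helper62.CoprimeProd
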