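import Mathlib
import Cfsg.Agent.Lib.Helper68.FixStmt

set_option autoImplicit false

namespace Cfsg.Agent.Lib.Helper62.FixCARD

universe u v

theorem main : Cfsg.Agent.Lib.Helper68.FixStmt.CARD.{u, v} := by
  intro k _ S _ _ M _ _ ρ V H lam w0 q a hVn hq hq2 hH hw0 heig hnofix
  haveI : Fact q.Prime := ⟨hq⟩
  letI act : MulAction ↥H M :=
    MulAction.compHom M ((ρ : S →* Module.End k M).comp H.subtype)
  have hsmul : ∀ (h : ↥H) (m : M), h • m = ρ (h : S) m := fun h m => rfl
  have hSt : ¬ q ∣ Nat.card (MulAction.stabilizer ↥H w0) := by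
    intro hd
    obtain ⟨s, hs⟩ := exists_prime_orderOf_dvd_card' q hd
    have hy : orderOf ((s : ↥H) : S) = q := by
      rw [Subgroup.orderOf_coe, Subgroup.orderOf_coe]; exact hs
    have hfix : ρ ((s : ↥H) : S) w0 = w0 := by
      have h1 := s.2
      rw [MulAction.mem_stabilizer_iff] at h1
      rw [← hsmul]
      exact h1
    apply hnofix ((s : ↥H) : S) (s : ↥H).2 hy
    intro v hv
    obtain ⟨y, hy'⟩ : ∃ y : S, y = ((s : ↥H) : S) := ⟨_, rfl⟩
    rw [← hy'] at hfix ⊢
    have hv' : y⁻¹ * v * y ∈ V := by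
      have := hVn.conj_mem v hv y⁻¹
      simpa using this
    have h1 : ρ (y⁻¹ * v * y) w0 = lam (y⁻¹ * v * y) • w0 := heig _ hv'
    have hfix' : ρ y⁻¹ w0 = w0 := by
      have h0 : ρ y⁻¹ (ρ y w0) = w0 := by
        rw [← Module.End.mul_apply, ← map_mul, inv_mul_cancel, map_one]
        rfl
      rwa [hfix] at h0
    have h2 : ρ (y⁻¹ * v * y) w0 = lam v • w0 := by
      rw [map_mul, map_mul, Module.End.mul_apply, Module.End.mul_apply, hfix, heig v hv,
        map_smul, hfix']
    have h3 : (lam (y⁻¹ * v * y) - lam v) • w0 = 0 := by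
      rw [sub_smul, ← h1, ← h2, sub_self]
    rcases smul_eq_zero.mp h3 with h | h
    · exact sub_eq_zero.mp h
    · exact absurd h hw0
  have hidx := MulAction.index_stabilizer ↥H w0
  have hcard := Subgroup.card_mul_index (MulAction.stabilizer ↥H w0)
  have horb : (MulAction.orbit ↥H w0) = {m : M | ∃ h ∈ H, ρ h w0 = m} := by
    ext m
    constructor
    · rintro ⟨h, rfl⟩
      exact ⟨h, h.2, rfl⟩
    · rintro ⟨h, hh, rfl⟩
      exact ⟨⟨h, hh⟩, rfl⟩
  have hgoal : Nat.card {m : M // ∃ h ∈ H, ρ h w0 = m} = (MulAction.orbit ↥H w0).ncard := by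
    rw [horb]
    exact Nat.card_coe_set_eq _
  rw [hgoal, ← hidx]
  have hdv : q ∣ Nat.card (MulAction.stabilizer ↥H w0) *
      (MulAction.stabilizer ↥H w0).index := by
    rw [hcard, hH]
    exact dvd_mul_left q _
  exact ((Nat.Prime.dvd_mul hq).mp hdv).resolve_left hSt

end Cfsg.Agent.Lib.Helper62.FixCARD
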