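import Mathlib
import Cfsg.Agent.Lib.Helper68.FixStmt

set_option autoImplicit false
open scoped commutatorElement Pointwise

namespace Cfsg.Agent.Lib.Helper62.FixFPF

universe u

theorem main : Cfsg.Agent.Lib.Helper68.FixStmt.FPF.{u} := by
  intro S _ _ q hqF V Q y hVn hcomm hQ hqV hVQ hy v hv hfix
  have hq : q.Prime := hqF.out
  -- Step 1: `zpowers y` is a Sylow `q`-subgroup, conjugate to `Q`
  have hYp : IsPGroup q (Subgroup.zpowers y) :=
    IsPGroup.of_card (n := 1) (by rw [Nat.card_zpowers, hy, pow_one])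
  obtain ⟨Q', hQ'⟩ := hYp.exists_le_sylow
  obtain ⟨g, hg⟩ := MulAction.exists_smul_eq S Q Q'
  have hcQ' : Nat.card Q' = q := by
    rw [Sylow.card_eq_multiplicity, ← Sylow.card_eq_multiplicity Q]
    exact hQ
  have hYQ' : Subgroup.zpowers y = (Q' : Subgroup S) :=
    Subgroup.eq_of_le_of_card_ge hQ' (by rw [Nat.card_zpowers, hy]; exact hcQ'.le)
  haveI := hVn
  have hV' : MulAut.conj g • V = V := Subgroup.Normal.conj_smul_eq_self g V
  have e1 : ∀ H : Subgroup S, MulAut.conj g • H = H.map (MulAut.conj g).toMonoidHom :=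
    fun H => rfl
  have hVY : ⁅V, Subgroup.zpowers y⁆ = V := by
    rw [hYQ', ← hg, Sylow.coe_subgroup_smul]
    calc ⁅V, MulAut.conj g • (Q : Subgroup S)⁆
        = ⁅MulAut.conj g • V, MulAut.conj g • (Q : Subgroup S)⁆ := by rw [hV']
      _ = ⁅V.map (MulAut.conj g).toMonoidHom, (Q : Subgroup S).map (MulAut.conj g).toMonoidHom⁆ := by
          rw [e1, e1]
      _ = (⁅V, (Q : Subgroup S)⁆).map (MulAut.conj g).toMonoidHom :=
          (Subgroup.map_commutator V (Q : Subgroup S) (MulAut.conj g).toMonoidHom).symm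
      _ = V.map (MulAut.conj g).toMonoidHom := by rw [hVQ]
      _ = MulAut.conj g • V := (e1 V).symm
      _ = V := hV'
  -- Step 2: the norm map
  letI : CommGroup ↥V :=
    { (inferInstance : Group ↥V) with
      mul_comm := fun a b => Subtype.ext (hcomm a a.2 b b.2) }
  let cj : S → (↥V →* ↥V) := fun z =>
    { toFun := fun u => ⟨z * u * z⁻¹, hVn.conj_mem u u.2 z⟩
      map_one' := by apply Subtype.ext; simp
      map_mul' := by intro a b; apply Subtype.ext; simp }
  have hcj : ∀ (z : S) (u : ↥V), ((cj z u : ↥V) : S) = z * u * z⁻¹ := fun z u => rfl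
  haveI : Fintype ↥(Subgroup.zpowers y) := Fintype.ofFinite _
  let N : ↥V →* ↥V := ∏ z : ↥(Subgroup.zpowers y), cj (z : S)
  have hN : ∀ u : ↥V, N u = ∏ z : ↥(Subgroup.zpowers y), cj (z : S) u :=
    fun u => MonoidHom.finsetProd_apply _ _ _
  have hNconj : ∀ (z0 : ↥(Subgroup.zpowers y)) (u : ↥V), N (cj (z0 : S) u) = N u := by
    intro z0 u
    rw [hN, hN]
    rw [← Equiv.prod_comp (Equiv.mulRight z0) (fun z : ↥(Subgroup.zpowers y) => cj (z : S) u)]
    apply Finset.prod_congr rfl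
    intro z _
    apply Subtype.ext
    simp only [hcj, Equiv.coe_mulRight, Subgroup.coe_mul]
    group
  have hker : ⁅V, Subgroup.zpowers y⁆ ≤ (N.ker).map V.subtype := by
    rw [Subgroup.commutator_le]
    intro a ha z hz
    refine ⟨⟨a, ha⟩ * cj z (⟨a, ha⟩⁻¹), ?_, ?_⟩
    · rw [SetLike.mem_coe, MonoidHom.mem_ker, map_mul, hNconj ⟨z, hz⟩, map_inv, mul_inv_cancel]
    · simp only [Subgroup.coe_subtype, Subgroup.coe_mul, hcj, Subgroup.coe_inv,
        commutatorElement_def]
      group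
  have hvker : N ⟨v, hv⟩ = 1 := by
    have h1 : v ∈ (N.ker).map V.subtype := hker (by rw [hVY]; exact hv)
    obtain ⟨c', hc', hc'v⟩ := h1
    have h2 : c' = ⟨v, hv⟩ := Subtype.ext hc'v
    rw [← h2]
    exact hc'
  have hfixall : ∀ z : ↥(Subgroup.zpowers y), cj (z : S) ⟨v, hv⟩ = ⟨v, hv⟩ := by
    intro z
    obtain ⟨n, hn⟩ := Subgroup.mem_zpowers_iff.mp z.2
    apply Subtype.ext
    rw [hcj, ← hn]
    have hc : Commute y v := mul_inv_eq_iff_eq_mul.mp hfix
    exact mul_inv_eq_iff_eq_mul.mpr ((hc.zpow_left n).eq)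
  have hpow : (⟨v, hv⟩ : ↥V) ^ q = 1 := by
    rw [← hvker, hN, Finset.prod_congr rfl (fun z _ => hfixall z), Finset.prod_const,
      Finset.card_univ, ← Nat.card_eq_fintype_card, Nat.card_zpowers, hy]
  have hvq : v ^ q = 1 := by
    have := congrArg Subtype.val hpow
    simpa using this
  have hord : orderOf v ∣ q := orderOf_dvd_of_pow_eq_one hvq
  have hordV : orderOf v ∣ Nat.card V := by
    have := orderOf_dvd_natCard (⟨v, hv⟩ : ↥V)
    rwa [Subgroup.orderOf_mk] at this
  rcases (Nat.dvd_prime hq).mp hord with h1 | h1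
  · exact orderOf_eq_one_iff.mp h1
  · exact absurd (h1 ▸ hordV) hqV

end Cfsg.Agent.Lib.Helper62.FixFPF
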