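import Mathlib
import Cfsg.Agent.Lib.Helper44.GFStmt

set_option autoImplicit false

/-! S2717, piece [SW]: exchanging the two roots of the splitting matrix is a reflection. -/

namespace Cfsg.Agent.Lib.Helper62.GFSW

open Matrix Module QuadraticMap
open Cfsg.Agent.Lib.Helper43.OPlAut Cfsg.Agent.Lib.Helper45.OmegaAut
  Cfsg.Agent.Lib.Helper43.H90Fin Cfsg.Agent.Lib.Helper45.MinusInndiag
open Cfsg.Agent.Lib.Helper44.OFld0 Cfsg.Agent.Lib.Helper44.OFld1
  Cfsg.Agent.Lib.Helper44.OFldStmt Cfsg.Agent.Lib.Helper44.MFld0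
  Cfsg.Agent.Lib.Helper44.MFldStmt Cfsg.Agent.Lib.Helper44.MCentStmt
  Cfsg.Agent.Lib.Helper44.GFStmt

universe u

variable {F : Type u} [Field F]

/-- polar vector of the plus form, left coordinates -/
theorem polarVec_plus_inl (m : ℕ) (v : Fin m ⊕ Fin m → F) (i : Fin m) :
    Cfsg.polarVec (Cfsg.quadFormPlus m F) v (Sum.inl i) = v (Sum.inr i) := by
  unfold Cfsg.polarVec QuadraticMap.polar Cfsg.quadFormPlus
  rw [← Finset.sum_sub_distrib, ← Finset.sum_sub_distrib, Finset.sum_eq_single i]
  · simp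
    ring
  · intro t _ hti
    simp [hti]
  · simp

/-- polar vector of the plus form, right coordinates -/
theorem polarVec_plus_inr (m : ℕ) (v : Fin m ⊕ Fin m → F) (i : Fin m) :
    Cfsg.polarVec (Cfsg.quadFormPlus m F) v (Sum.inr i) = v (Sum.inl i) := by
  unfold Cfsg.polarVec QuadraticMap.polar Cfsg.quadFormPlus
  rw [← Finset.sum_sub_distrib, ← Finset.sum_sub_distrib, Finset.sum_eq_single i]
  · simp
    ring
  · intro t _ hti
    simp [hti]
  · simp

/-- the swap of the last hyperbolic pair -/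
def sw (k : ℕ) : Equiv.Perm (PI k) :=
  Equiv.swap (Sum.inl (Fin.last k)) (Sum.inr (Fin.last k))

/-- the permutation matrix of `sw` -/
def swM (F : Type u) [Field F] (k : ℕ) : Matrix (PI k) (PI k) F :=
  Matrix.of (fun a b => if b = sw k a then (1 : F) else 0)

/-- the vector `e_k - f_k` -/
def wv (F : Type u) [Field F] (k : ℕ) : PI k → F :=
  Sum.elim (Pi.single (Fin.last k) 1) (Pi.single (Fin.last k) (-1))

theorem swM_mul {κ : Type} [Fintype κ] (k : ℕ) (M : Matrix (PI k) κ F) (a : PI k) (c : κ) :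
    (swM F k * M) a c = M (sw k a) c := by
  rw [Matrix.mul_apply]
  simp [swM]

theorem swM_mulVec (k : ℕ) (v : PI k → F) (a : PI k) :
    (swM F k *ᵥ v) a = v (sw k a) := by
  simp [swM, Matrix.mulVec, dotProduct]

theorem swM_sq (k : ℕ) : swM F k * swM F k = 1 := by
  ext a c
  rw [swM_mul]
  show (if c = sw k (sw k a) then (1 : F) else 0) = _
  rw [sw, Equiv.swap_apply_self, Matrix.one_apply]
  by_cases h : a = c
  · simp [h]
  · have : ¬ c = a := fun h' => h h'.symm
    simp [h, this]

theorem quad_wv (k : ℕ) : Cfsg.quadFormPlus (k + 1) F (wv F k) = -1 := by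
  unfold Cfsg.quadFormPlus wv
  rw [Finset.sum_eq_single (Fin.last k)]
  · simp
  · intro t _ ht
    simp [ht]
  · simp

theorem sw_inl_last (k : ℕ) : sw k (Sum.inl (Fin.last k)) = Sum.inr (Fin.last k) :=
  Equiv.swap_apply_left _ _

theorem sw_inr_last (k : ℕ) : sw k (Sum.inr (Fin.last k)) = Sum.inl (Fin.last k) :=
  Equiv.swap_apply_right _ _

theorem sw_inl_ne (k : ℕ) {i : Fin (k + 1)} (hi : i ≠ Fin.last k) :
    sw k (Sum.inl i) = Sum.inl i :=
  Equiv.swap_apply_of_ne_of_ne (by simpa using hi) (by simp)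

theorem sw_inr_ne (k : ℕ) {i : Fin (k + 1)} (hi : i ≠ Fin.last k) :
    sw k (Sum.inr i) = Sum.inr i :=
  Equiv.swap_apply_of_ne_of_ne (by simp) (by simpa using hi)

theorem refl_eq (k : ℕ) :
    Cfsg.reflectionMatrix (Cfsg.quadFormPlus (k + 1) F) (wv F k) = swM F k := by
  unfold Cfsg.reflectionMatrix
  rw [quad_wv]
  ext a b
  have hinv : ((-1 : F))⁻¹ = -1 := by norm_num
  rw [hinv]
  simp only [Matrix.sub_apply, Matrix.smul_apply, Matrix.vecMulVec_apply, smul_eq_mul,
    Matrix.one_apply, swM, Matrix.of_apply]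
  rcases a with i | i <;> rcases b with i' | i'
  · rw [polarVec_plus_inl]
    by_cases hi : i = Fin.last k
    · subst hi
      by_cases hi' : i' = Fin.last k
      · subst hi'
        simp [wv, sw_inl_last]
      · have : ¬ Fin.last k = i' := fun h => hi' h.symm
        simp [wv, hi', this, sw_inl_last]
    · by_cases hii : i = i'
      · subst hii
        simp [wv, hi, sw_inl_ne k hi]
      · have : ¬ i' = i := fun h => hii h.symm
        simp [wv, hi, hii, this, sw_inl_ne k hi]
  · rw [polarVec_plus_inr]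
    by_cases hi : i = Fin.last k
    · subst hi
      by_cases hi' : i' = Fin.last k
      · subst hi'
        simp [wv, sw_inl_last]
      · simp [wv, hi', sw_inl_last]
    · simp [wv, hi, sw_inl_ne k hi]
  · rw [polarVec_plus_inl]
    by_cases hi : i = Fin.last k
    · subst hi
      by_cases hi' : i' = Fin.last k
      · subst hi'
        simp [wv, sw_inr_last]
      · simp [wv, hi', sw_inr_last]
    · simp [wv, hi, sw_inr_ne k hi]
  · rw [polarVec_plus_inr]
    by_cases hi : i = Fin.last k
    · subst hi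
      by_cases hi' : i' = Fin.last k
      · subst hi'
        simp [wv, sw_inr_last]
      · have : ¬ Fin.last k = i' := fun h => hi' h.symm
        simp [wv, hi', this, sw_inr_last]
    · by_cases hii : i = i'
      · subst hii
        simp [wv, hi, sw_inr_ne k hi]
      · have : ¬ i' = i := fun h => hii h.symm
        simp [wv, hi, hii, this, sw_inr_ne k hi]

theorem quad_sw (k : ℕ) (v : PI k → F) :
    Cfsg.quadFormPlus (k + 1) F (swM F k *ᵥ v) = Cfsg.quadFormPlus (k + 1) F v := by
  unfold Cfsg.quadFormPlus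
  refine Finset.sum_congr rfl fun i _ => ?_
  rw [swM_mulVec, swM_mulVec]
  by_cases hi : i = Fin.last k
  · subst hi
    rw [sw, Equiv.swap_apply_left, Equiv.swap_apply_right, mul_comm]
  · have h1 : sw k (Sum.inl i) = Sum.inl i :=
      Equiv.swap_apply_of_ne_of_ne (by simpa using hi) (by simp)
    have h2 : sw k (Sum.inr i) = Sum.inr i :=
      Equiv.swap_apply_of_ne_of_ne (by simp) (by simpa using hi)
    rw [h1, h2]

theorem sw_Hs (k : ℕ) (ω ω' : F) : swM F k * Hs k ω' ω = Hs k ω ω' := by
  ext a c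
  rw [swM_mul]
  show HsRow k ω' ω (sw k a) c = HsRow k ω ω' a c
  rcases a with i | i
  · induction i using Fin.lastCases with
    | last =>
      rw [sw, Equiv.swap_apply_left]
      simp [HsRow]
    | cast i =>
      have h1 : sw k (Sum.inl (Fin.castSucc i)) = Sum.inl (Fin.castSucc i) :=
        Equiv.swap_apply_of_ne_of_ne
          (by simp) (by simp)
      rw [h1]
      simp [HsRow]
  · induction i using Fin.lastCases with
    | last =>
      rw [sw, Equiv.swap_apply_right]
      simp [HsRow]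
    | cast i =>
      have h1 : sw k (Sum.inr (Fin.castSucc i)) = Sum.inr (Fin.castSucc i) :=
        Equiv.swap_apply_of_ne_of_ne (by simp)
          (by simp)
      rw [h1]
      simp [HsRow]

/-- piece [SW] of S2717 -/
theorem main : Cfsg.Agent.Lib.Helper44.GFStmt.SwapRefl.{u} := by
  intro F _ k ω ω'
  let g : GL (PI k) F := ⟨swM F k, swM F k, swM_sq k, swM_sq k⟩
  have hg : g ∈ Cfsg.Geo.quadSimilarityGroup (F := F) (Cfsg.quadFormPlus (k + 1) F) := by
    refine ⟨1, fun v => ?_⟩
    show Cfsg.quadFormPlus (k + 1) F (swM F k *ᵥ v) = _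
    rw [quad_sw, Units.val_one, one_mul]
  refine ⟨⟨g, hg⟩, wv F k, ?_, ?_, ?_, ?_, ?_⟩
  · rw [quad_wv]; simp
  · intro σ i
    rcases i with i | i
    · by_cases hi : i = Fin.last k
      · simp [wv, hi]
      · simp [wv, hi]
    · by_cases hi : i = Fin.last k
      · simp [wv, hi]
      · simp [wv, hi]
  · show swM F k = _
    rw [refl_eq]
  · show swM F k * Hs k ω' ω = Hs k ω ω'
    exact sw_Hs k ω ω'
  · apply Subtype.ext
    apply Units.ext
    show swM F k * swM F k = 1
    exact swM_sq k

end Cfsg.Agent.Lib.Helper62.GFSW
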