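-- helper62: finite groups whose maximal subgroups are `p`-nilpotent or of prime index
-- have a normal series with factors `p'`, `p`, `p'`, `p` (for a class of groups closed under
-- quotients in which nontrivial groups have a nontrivial normal `p`- or `p'`-subgroup).
import Mathlib
import Cfsg.Agent.Lib.Helper9.CS2
import Cfsg.Agent.Lib.Helper76.PSolv

set_option autoImplicit false
set_option linter.style.haveILetI false

namespace Cfsg.Agent.Lib.Helper62.PLenMax

universe u

/-- internal form of the hypothesis on maximal subgroups -/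
def MaxHyp (p : ℕ) (G : Type u) [Group G] : Prop :=
  ∀ M : Subgroup G, IsCoatom M →
    (∃ K : Subgroup G, K ≤ M ∧ M ≤ Subgroup.normalizer (K : Set G) ∧ ¬ p ∣ Nat.card K ∧
      ∃ k : ℕ, K.relIndex M = p ^ k) ∨ (M.index).Prime

/-- the conclusion: a normal series with factors `p'`, `p`, `p'`, `p` -/
def Concl (p : ℕ) (G : Type u) [Group G] : Prop :=
  ∃ A B C : Subgroup G, A.Normal ∧ B.Normal ∧ C.Normal ∧ A ≤ B ∧ B ≤ C ∧ ¬ p ∣ Nat.card A ∧
    (∃ k : ℕ, A.relIndex B = p ^ k) ∧ ¬ p ∣ B.relIndex C ∧ ∃ k : ℕ, C.index = p ^ k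

theorem mem_normalizer_of_conj_mem {G : Type*} [Group G] [Finite G] (S : Subgroup G) (y : G)
    (h : ∀ s ∈ S, y * s * y⁻¹ ∈ S) : y ∈ Subgroup.normalizer (S : Set G) := by
  have hle : S.map (MulAut.conj y).toMonoidHom ≤ S := by
    rintro _ ⟨s, hs, rfl⟩
    exact h s hs
  have hcard : Nat.card S ≤ Nat.card (S.map (MulAut.conj y).toMonoidHom) := by
    rw [Subgroup.card_map_of_injective (MulAut.conj y).injective]
  have heq := Subgroup.eq_of_le_of_card_ge hle hcard
  rw [Subgroup.mem_normalizer_iff]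
  intro n
  refine ⟨h n, fun hn => ?_⟩
  rw [← heq] at hn
  obtain ⟨s, hs, hsn⟩ := hn
  have h2 : y * s * y⁻¹ = y * n * y⁻¹ := hsn
  have h3 : s = n := by
    have h4 : y⁻¹ * (y * s * y⁻¹) * y = y⁻¹ * (y * n * y⁻¹) * y := by rw [h2]
    have e1 : y⁻¹ * (y * s * y⁻¹) * y = s := by group
    have e2 : y⁻¹ * (y * n * y⁻¹) * y = n := by group
    rw [e1, e2] at h4
    exact h4
  rw [← h3]
  exact hs

theorem card_eq_mul_relIndex {G : Type*} [Group G] {H K : Subgroup G} (h : H ≤ K) :
    Nat.card ↥K = Nat.card ↥H * H.relIndex K := by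
  rw [← Subgroup.relIndex_bot_left, ← Subgroup.relIndex_mul_relIndex ⊥ H K bot_le h,
    Subgroup.relIndex_bot_left]

theorem relIndex_dvd_of_le {G : Type*} [Group G] (N : Subgroup G) [N.Normal] {K A : Subgroup G}
    (hK : K ≤ A) (hN : N ≤ A) : N.relIndex K ∣ N.relIndex A := by
  rw [← Subgroup.relIndex_sup_right K N]
  exact Dvd.intro _ (Subgroup.relIndex_mul_relIndex N (K ⊔ N) A le_sup_right (sup_le hK hN))

/-- the statement's form of the hypothesis implies the internal one -/
theorem maxHyp_of_hyp {G : Type u} [Group G] [Finite G] (p : ℕ)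
    (hmax : ∀ M : Subgroup G, IsCoatom M →
      (∃ K : Subgroup ↥M, K.Normal ∧ ¬ p ∣ Nat.card K ∧ ∃ k : ℕ, K.index = p ^ k) ∨
        (M.index).Prime) :
    MaxHyp p G := by
  intro M hM
  rcases hmax M hM with ⟨K, hKn, hKp, k, hk⟩ | h
  · left
    refine ⟨K.map M.subtype, Subgroup.map_subtype_le K, ?_, ?_, ⟨k, ?_⟩⟩
    · intro m hm
      apply mem_normalizer_of_conj_mem
      rintro _ ⟨x, hx, rfl⟩
      exact ⟨⟨m, hm⟩ * x * ⟨m, hm⟩⁻¹, hKn.conj_mem x hx ⟨m, hm⟩, rfl⟩
    · rw [Subgroup.card_subtype]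
      exact hKp
    · show ((K.map M.subtype).subgroupOf M).index = p ^ k
      rw [Subgroup.subgroupOf,
        Subgroup.comap_map_eq_self_of_injective (Subgroup.subtype_injective M)]
      exact hk
  · exact Or.inr h

theorem le_comap_mk {G : Type u} [Group G] (N : Subgroup G) [N.Normal]
    (Mb : Subgroup (G ⧸ N)) : N ≤ Mb.comap (QuotientGroup.mk' N) := by
  have h2 := MonoidHom.ker_le_comap (QuotientGroup.mk' N) Mb
  rwa [QuotientGroup.ker_mk'] at h2

theorem isCoatom_comap {G : Type u} [Group G] (N : Subgroup G) [N.Normal]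
    (Mb : Subgroup (G ⧸ N)) (h : IsCoatom Mb) : IsCoatom (Mb.comap (QuotientGroup.mk' N)) := by
  have hπ : Function.Surjective (QuotientGroup.mk' N) := QuotientGroup.mk'_surjective N
  have hmc : (Mb.comap (QuotientGroup.mk' N)).map (QuotientGroup.mk' N) = Mb :=
    Subgroup.map_comap_eq_self_of_surjective hπ Mb
  constructor
  · intro htop
    apply h.1
    rw [← hmc, htop]
    exact Subgroup.map_top_of_surjective _ hπ
  · intro K hK
    have hle : Mb ≤ K.map (QuotientGroup.mk' N) := by
      rw [← hmc]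
      exact Subgroup.map_mono hK.le
    have hne : Mb ≠ K.map (QuotientGroup.mk' N) := by
      intro heq
      have hKM : K ≤ Mb.comap (QuotientGroup.mk' N) := by
        rw [heq]
        exact Subgroup.le_comap_map _ K
      exact lt_irrefl _ (lt_of_lt_of_le hK hKM)
    have htop : K.map (QuotientGroup.mk' N) = ⊤ := h.2 _ (lt_of_le_of_ne hle hne)
    have h1 : (K.map (QuotientGroup.mk' N)).comap (QuotientGroup.mk' N) = K ⊔ N := by
      rw [Subgroup.comap_map_eq, QuotientGroup.ker_mk']
    have hNK : N ≤ K := (le_comap_mk N Mb).trans hK.le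
    rw [htop, Subgroup.comap_top, sup_of_le_left hNK] at h1
    exact h1.symm

theorem maxHyp_quotient {G : Type u} [Group G] [Finite G] (p : ℕ) [Fact p.Prime]
    (N : Subgroup G) [N.Normal] (h : MaxHyp p G) : MaxHyp p (G ⧸ N) := by
  intro Mb hMb
  have hπ : Function.Surjective (QuotientGroup.mk' N) := QuotientGroup.mk'_surjective N
  have hmc : (Mb.comap (QuotientGroup.mk' N)).map (QuotientGroup.mk' N) = Mb :=
    Subgroup.map_comap_eq_self_of_surjective hπ Mb
  obtain ⟨M, hM⟩ : ∃ M : Subgroup G, M = Mb.comap (QuotientGroup.mk' N) := ⟨_, rfl⟩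
  have hMb' : Mb = M.map (QuotientGroup.mk' N) := by rw [hM, hmc]
  have hNM : N ≤ M := by
    rw [hM]
    exact le_comap_mk N Mb
  have hMco : IsCoatom M := by
    rw [hM]
    exact isCoatom_comap N Mb hMb
  have hidx : Mb.index = M.index := by
    rw [hM, Subgroup.index_comap_of_surjective Mb hπ]
  rw [hidx, hMb']
  rcases h M hMco with ⟨K, hKM, hMK, hKp, k, hk⟩ | hprime
  · left
    refine ⟨K.map (QuotientGroup.mk' N), Subgroup.map_mono hKM,
      (Subgroup.map_mono hMK).trans (Subgroup.le_normalizer_map _),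
      fun hd => hKp (hd.trans (Subgroup.card_map_dvd K _)), ?_⟩
    have hdvd : (K.map (QuotientGroup.mk' N)).relIndex (M.map (QuotientGroup.mk' N))
        ∣ K.relIndex M := by
      rw [Subgroup.relIndex_map_map, QuotientGroup.ker_mk', sup_of_le_left hNM]
      exact Subgroup.relIndex_dvd_of_le_left M le_sup_left
    rw [hk] at hdvd
    obtain ⟨j, -, hj⟩ := (Nat.dvd_prime_pow Fact.out).mp hdvd
    exact ⟨j, hj⟩
  · exact Or.inr hprime

theorem pull {G : Type u} [Group G] [Finite G] (p : ℕ) (N : Subgroup G) [N.Normal]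
    (h : Concl p (G ⧸ N)) :
    ∃ A B C : Subgroup G, A.Normal ∧ B.Normal ∧ C.Normal ∧ N ≤ A ∧ A ≤ B ∧ B ≤ C ∧
      ¬ p ∣ N.relIndex A ∧ (∃ k : ℕ, A.relIndex B = p ^ k) ∧ ¬ p ∣ B.relIndex C ∧
      ∃ k : ℕ, C.index = p ^ k := by
  obtain ⟨Ab, Bb, Cb, hA, hB, hC, hAB, hBC, hAc, hABk, hBCc, hCk⟩ := h
  have hπ : Function.Surjective (QuotientGroup.mk' N) := QuotientGroup.mk'_surjective N
  have hrel : ∀ X Y : Subgroup (G ⧸ N),
      (X.comap (QuotientGroup.mk' N)).relIndex (Y.comap (QuotientGroup.mk' N))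
        = X.relIndex Y := by
    intro X Y
    rw [Subgroup.relIndex_comap, Subgroup.map_comap_eq_self_of_surjective hπ]
  refine ⟨Ab.comap (QuotientGroup.mk' N), Bb.comap (QuotientGroup.mk' N),
    Cb.comap (QuotientGroup.mk' N), hA.comap _, hB.comap _, hC.comap _, le_comap_mk N Ab,
    Subgroup.comap_mono hAB, Subgroup.comap_mono hBC, ?_, ?_, ?_, ?_⟩
  · have e1 := hrel ⊥ Ab
    rw [MonoidHom.comap_bot, QuotientGroup.ker_mk', Subgroup.relIndex_bot_left] at e1
    rw [e1]
    exact hAc
  · rw [hrel]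
    exact hABk
  · rw [hrel]
    exact hBCc
  · rw [Subgroup.index_comap_of_surjective _ hπ]
    exact hCk

theorem exists_minimal_normal {G : Type u} [Group G] [Finite G] (Z : Subgroup G)
    (hZ : Z.Normal) (hne : Z ≠ ⊥) :
    ∃ N : Subgroup G, N.Normal ∧ N ≠ ⊥ ∧ N ≤ Z ∧
      ∀ N' : Subgroup G, N'.Normal → N' ≤ N → N' = ⊥ ∨ N' = N := by
  obtain ⟨N, hN⟩ := (Set.toFinite {N : Subgroup G | N.Normal ∧ N ≠ ⊥ ∧ N ≤ Z}).exists_minimal
    ⟨Z, hZ, hne, le_rfl⟩
  obtain ⟨⟨hNn, hNne, hNZ⟩, hmin⟩ := hN
  refine ⟨N, hNn, hNne, hNZ, ?_⟩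
  intro N' hN'n hN'N
  by_cases h0 : N' = ⊥
  · exact Or.inl h0
  · right
    have hmem : N' ∈ {N : Subgroup G | N.Normal ∧ N ≠ ⊥ ∧ N ≤ Z} :=
      ⟨hN'n, h0, hN'N.trans hNZ⟩
    exact le_antisymm hN'N (hmin hmem hN'N)

/-- **Main theorem.** -/
theorem main (p : ℕ) [Fact p.Prime] (Good : ∀ (H : Type u) [Group H], Prop)
    (hq : ∀ (H : Type u) [Group H] [Finite H] (N : Subgroup H) [N.Normal],
      Good H → Good (H ⧸ N))
    (hn : ∀ (H : Type u) [Group H] [Finite H] [Nontrivial H], Good H →
      ∃ M : Subgroup H, M.Normal ∧ M ≠ ⊥ ∧ (IsPGroup p M ∨ (Nat.card M).Coprime p)) :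
    ∀ (n : ℕ) (G : Type u) [Group G] [Finite G], Nat.card G = n → Good G → MaxHyp p G →
      Concl p G := by
  have hpr : p.Prime := Fact.out
  have hnd1 : ¬ p ∣ 1 := fun h => hpr.one_lt.ne' (Nat.dvd_one.mp h)
  intro n
  induction n using Nat.strong_induction_on with
  | _ n ih =>
  intro G _ _ hn' hGood hmax
  subst hn'
  by_cases htriv : Nat.card G = 1
  · refine ⟨⊥, ⊥, ⊥, inferInstance, inferInstance, inferInstance, le_rfl, le_rfl, ?_, ⟨0, ?_⟩,
      ?_, ⟨0, ?_⟩⟩
    · rw [Subgroup.card_bot]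
      exact hnd1
    · rw [Subgroup.relIndex_self, pow_zero]
    · rw [Subgroup.relIndex_self]
      exact hnd1
    · rw [Subgroup.index_bot, htriv, pow_zero]
  haveI : Nontrivial G := by
    rw [← Finite.one_lt_card_iff_nontrivial]
    have h0 : 0 < Nat.card G := Nat.card_pos
    omega
  -- quotient step
  have hquot : ∀ (N : Subgroup G) [N.Normal], N ≠ ⊥ → Concl p (G ⧸ N) := by
    intro N _ hN
    have hcard : Nat.card G = Nat.card (G ⧸ N) * Nat.card N :=
      Subgroup.card_eq_card_quotient_mul_card_subgroup N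
    have hN2 : 2 ≤ Nat.card N := by
      have h1 : Nat.card N ≠ 1 := fun h => hN (Subgroup.card_eq_one.mp h)
      have h2 : 0 < Nat.card N := Nat.card_pos
      omega
    have hQpos : 0 < Nat.card (G ⧸ N) := Nat.card_pos
    have hlt : Nat.card (G ⧸ N) < Nat.card G := by
      rw [hcard]
      nlinarith
    exact ih _ hlt (G ⧸ N) rfl (hq G N hGood) (maxHyp_quotient p N hmax)
  by_cases hR : ∃ R : Subgroup G, R.Normal ∧ R ≠ ⊥ ∧ ¬ p ∣ Nat.card R
  · obtain ⟨R, hRn, hRne, hRp⟩ := hR
    haveI := hRn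
    obtain ⟨A, B, C, hA, hB, hC, hRA, hAB, hBC, hRAp, hABk, hBCp, hCk⟩ :=
      pull p R (hquot R hRne)
    refine ⟨A, B, C, hA, hB, hC, hAB, hBC, ?_, hABk, hBCp, hCk⟩
    rw [card_eq_mul_relIndex hRA]
    intro hd
    rcases (Nat.Prime.dvd_mul hpr).mp hd with h | h
    · exact hRp h
    · exact hRAp h
  -- no nontrivial normal p'-subgroup
  have hnoR : ∀ R : Subgroup G, R.Normal → ¬ p ∣ Nat.card R → R = ⊥ := by
    intro R hRn hRp
    by_contra hne
    exact hR ⟨R, hRn, hne, hRp⟩
  obtain ⟨M₀, hM₀n, hM₀ne, hM₀⟩ := hn G hGood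
  have hM₀p : IsPGroup p M₀ := by
    rcases hM₀ with h | h
    · exact h
    · exact absurd (hnoR M₀ hM₀n ((Nat.Prime.coprime_iff_not_dvd hpr).mp h.symm)) hM₀ne
  haveI := hM₀n
  -- Z₀ = Z(M₀)
  obtain ⟨Z₀, hZ₀⟩ : ∃ Z₀ : Subgroup G, Z₀ = M₀ ⊓ Subgroup.centralizer (M₀ : Set G) :=
    ⟨_, rfl⟩
  have hZ₀n : Z₀.Normal := by
    rw [hZ₀]
    haveI : (Subgroup.centralizer (M₀ : Set G)).Normal := Subgroup.normal_centralizer
    exact Subgroup.normal_inf_normal _ _
  have hZ₀ne : Z₀ ≠ ⊥ := by
    haveI : Nontrivial ↥M₀ := (Subgroup.nontrivial_iff_ne_bot M₀).mpr hM₀ne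
    haveI : Nontrivial ↥(Subgroup.center ↥M₀) := hM₀p.center_nontrivial
    obtain ⟨z, hz⟩ := exists_ne (1 : ↥(Subgroup.center ↥M₀))
    intro h0
    apply hz
    have hzmem : ((z : ↥M₀) : G) ∈ Z₀ := by
      rw [hZ₀]
      refine Subgroup.mem_inf.mpr ⟨(z : ↥M₀).2, ?_⟩
      rw [Subgroup.mem_centralizer_iff]
      intro x hx
      have h1 := Subgroup.mem_center_iff.mp z.2 ⟨x, hx⟩
      exact congrArg Subtype.val h1
    rw [h0, Subgroup.mem_bot] at hzmem
    exact Subtype.ext (Subtype.ext hzmem)
  have hZ₀ab : ∀ x ∈ Z₀, ∀ y ∈ Z₀, x * y = y * x := by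
    intro x hx y hy
    rw [hZ₀] at hx hy
    exact Subgroup.mem_centralizer_iff.mp (Subgroup.mem_inf.mp hy).2 x (Subgroup.mem_inf.mp hx).1
  obtain ⟨N, hNn, hNne, hNZ, hNmin⟩ := exists_minimal_normal Z₀ hZ₀n hZ₀ne
  haveI := hNn
  have hNab : ∀ x ∈ N, ∀ y ∈ N, x * y = y * x :=
    fun x hx y hy => hZ₀ab x (hNZ hx) y (hNZ hy)
  have hNp : IsPGroup p N := hM₀p.to_le (hNZ.trans (by rw [hZ₀]; exact inf_le_left))
  obtain ⟨a, ha⟩ := IsPGroup.iff_card.mp hNp
  obtain ⟨A, B, C, hA, hB, hC, hNA, hAB, hBC, hNAp, ⟨k, hk⟩, hBCp, hCk⟩ :=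
    pull p N (hquot N hNne)
  haveI := hA
  haveI := hB
  haveI := hC
  by_cases hfr : ∀ M : Subgroup G, IsCoatom M → N ≤ M
  · -- case (a): `N` lies in the Frattini subgroup
    have hAN : A = N := by
      haveI hN'ab : IsMulCommutative ↥(N.subgroupOf A) :=
        ⟨⟨fun x y => Subtype.ext (Subtype.ext
          (hNab _ (Subgroup.mem_subgroupOf.mp x.2) _ (Subgroup.mem_subgroupOf.mp y.2)))⟩⟩
      have hcN' : Nat.card ↥(N.subgroupOf A) = p ^ a := by
        rw [Nat.card_congr (Subgroup.subgroupOfEquivOfLe hNA).toEquiv, ha]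
      have hcop : (Nat.card ↥(N.subgroupOf A)).Coprime (N.subgroupOf A).index := by
        rw [hcN']
        exact Nat.Coprime.pow_left a ((Nat.Prime.coprime_iff_not_dvd hpr).mpr hNAp)
      obtain ⟨H', hH'⟩ := Subgroup.exists_right_complement'_of_coprime hcop
      have hcH' : Nat.card ↥H' = N.relIndex A := by
        have h1 := hH'.card_mul_card
        have h2 := Subgroup.card_mul_index (N.subgroupOf A)
        have h3 : 0 < Nat.card ↥(N.subgroupOf A) := Nat.card_pos
        exact Nat.eq_of_mul_eq_mul_left h3 (h1.trans h2.symm)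
      obtain ⟨H, hH⟩ : ∃ H : Subgroup G, H = H'.map A.subtype := ⟨_, rfl⟩
      have hfrat : ∀ g : G, ∃ n ∈ N, n⁻¹ * g ∈ Subgroup.normalizer (H : Set G) := by
        intro g
        obtain ⟨K₂, hK₂⟩ : ∃ K₂ : Subgroup ↥A,
            K₂ = H'.map (MulAut.conjNormal g : MulAut ↥A).toMonoidHom := ⟨_, rfl⟩
        have hcK₂ : Nat.card ↥K₂ = Nat.card ↥H' := by
          rw [hK₂]
          exact Subgroup.card_map_of_injective (MulAut.conjNormal g : MulAut ↥A).injective
        have hK₂c : Subgroup.IsComplement' (N.subgroupOf A) K₂ := by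
          apply Subgroup.isComplement'_of_coprime
          · rw [hcK₂]
            exact hH'.card_mul_card
          · rw [hcK₂, hcH']
            exact hcop
        obtain ⟨h, hh, hconj⟩ := Cfsg.Agent.Lib.Helper9.CS2.conj_of_isComplement'_abelian
          (N.subgroupOf A) hcop H' K₂ hH' hK₂c
        refine ⟨(h : G), Subgroup.mem_subgroupOf.mp hh, ?_⟩
        apply mem_normalizer_of_conj_mem
        intro s hs
        rw [hH] at hs ⊢
        obtain ⟨x, hx, rfl⟩ := hs
        have h1 : (MulAut.conjNormal g : MulAut ↥A) x ∈ K₂ := by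
          rw [hK₂]
          exact Subgroup.mem_map_of_mem _ hx
        rw [hconj] at h1
        obtain ⟨y, hy, hyx⟩ := h1
        have h2 : (h : G) * (y : G) * (h : G)⁻¹ = g * (x : G) * g⁻¹ := by
          have h2' := congrArg Subtype.val hyx
          rw [MulAut.conjNormal_apply] at h2'
          exact h2'
        have h3 : (h : G)⁻¹ * g * (x : G) * ((h : G)⁻¹ * g)⁻¹ = (y : G) := by
          calc (h : G)⁻¹ * g * (x : G) * ((h : G)⁻¹ * g)⁻¹
              = (h : G)⁻¹ * (g * (x : G) * g⁻¹) * (h : G) := by group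
            _ = (h : G)⁻¹ * ((h : G) * (y : G) * (h : G)⁻¹) * (h : G) := by rw [h2]
            _ = (y : G) := by group
        have h4 : (h : G)⁻¹ * g * A.subtype x * ((h : G)⁻¹ * g)⁻¹ = A.subtype y := h3
        rw [h4]
        exact Subgroup.mem_map_of_mem _ hy
      have hsup : N ⊔ Subgroup.normalizer (H : Set G) = ⊤ := by
        rw [eq_top_iff]
        intro g _
        obtain ⟨n, hn, hg⟩ := hfrat g
        have hgn : n * (n⁻¹ * g) = g := mul_inv_cancel_left n g
        rw [← hgn]
        exact Subgroup.mul_mem_sup hn hg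
      have hHn : H.Normal := by
        rw [← Subgroup.normalizer_eq_top_iff]
        rcases eq_top_or_exists_le_coatom (Subgroup.normalizer (H : Set G)) with h | ⟨M, hM, hle⟩
        · exact h
        · exfalso
          have hle' : (⊤ : Subgroup G) ≤ M := by
            rw [← hsup]
            exact sup_le (hfr M hM) hle
          exact hM.1 (top_le_iff.mp hle')
      have hcH : Nat.card ↥H = N.relIndex A := by
        rw [hH, Subgroup.card_subtype, hcH']
      have hHbot : H = ⊥ := hnoR H hHn (by rw [hcH]; exact hNAp)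
      have h1 : N.relIndex A = 1 := by
        rw [← hcH, hHbot, Subgroup.card_bot]
      exact le_antisymm (Subgroup.relIndex_eq_one.mp h1) hNA
    rw [hAN] at hk
    refine ⟨⊥, B, C, inferInstance, hB, hC, bot_le, hBC, ?_, ⟨a + k, ?_⟩, hBCp, hCk⟩
    · rw [Subgroup.card_bot]
      exact hnd1
    · rw [Subgroup.relIndex_bot_left, card_eq_mul_relIndex (hNA.trans hAB), ha, hk, pow_add]
  · -- case (b): some maximal subgroup `M` does not contain `N`
    obtain ⟨M, hM, hNM⟩ : ∃ M : Subgroup G, IsCoatom M ∧ ¬ N ≤ M := by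
      by_contra hcon
      apply hfr
      intro M hM
      by_contra hNM
      exact hcon ⟨M, hM, hNM⟩
    have hsup : N ⊔ M = ⊤ := by
      apply hM.2
      refine lt_of_le_of_ne le_sup_right (fun h => hNM ?_)
      rw [h]
      exact le_sup_left
    have hNMbot : N ⊓ M = ⊥ := by
      have hnorm : (N ⊓ M).Normal := by
        rw [← Subgroup.normalizer_eq_top_iff, eq_top_iff, ← hsup]
        apply sup_le
        · intro n hn
          apply mem_normalizer_of_conj_mem
          intro x hx
          have hxN := (Subgroup.mem_inf.mp hx).1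
          have e : n * x * n⁻¹ = x := by rw [hNab n hn x hxN, mul_inv_cancel_right]
          rw [e]
          exact hx
        · intro m hm
          apply mem_normalizer_of_conj_mem
          intro x hx
          obtain ⟨hxN, hxM⟩ := Subgroup.mem_inf.mp hx
          exact Subgroup.mem_inf.mpr ⟨hNn.conj_mem x hxN m,
            M.mul_mem (M.mul_mem hm hxM) (M.inv_mem hm)⟩
      rcases hNmin (N ⊓ M) hnorm inf_le_left with h | h
      · exact h
      · exact absurd (inf_eq_left.mp h) hNM
    rcases hmax M hM with ⟨K, hKM, hMK, hKp, j, hj⟩ | hprime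
    · -- (b1): `M` has a normal `p`-complement `K`
      obtain ⟨C', hC'⟩ : ∃ C' : Subgroup G, C' = N ⊔ K := ⟨_, rfl⟩
      have hNC' : N ≤ C' := by
        rw [hC']
        exact le_sup_left
      have hKC' : K ≤ C' := by
        rw [hC']
        exact le_sup_right
      have hC'n : C'.Normal := by
        rw [← Subgroup.normalizer_eq_top_iff, eq_top_iff, ← hsup]
        apply sup_le
        · exact hNC'.trans Subgroup.le_normalizer
        · intro m hm
          apply mem_normalizer_of_conj_mem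
          intro x hx
          rw [hC'] at hx ⊢
          obtain ⟨y, hy, z, hz, rfl⟩ := Subgroup.mem_sup_of_normal_left.mp hx
          have e : m * (y * z) * m⁻¹ = (m * y * m⁻¹) * (m * z * m⁻¹) := by group
          rw [e]
          exact Subgroup.mul_mem_sup (hNn.conj_mem y hy m)
            ((Subgroup.mem_normalizer_iff.mp (hMK hm) z).mp hz)
      haveI := hC'n
      refine ⟨⊥, N, C', inferInstance, hNn, hC'n, bot_le, hNC', ?_, ⟨a, ?_⟩, ?_, ?_⟩
      · rw [Subgroup.card_bot]
        exact hnd1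
      · rw [Subgroup.relIndex_bot_left, ha]
      · rw [hC', Subgroup.relIndex_sup_left]
        exact fun hd => hKp (hd.trans (Subgroup.relIndex_dvd_card N K))
      · have h1 : C'.index = C'.relIndex M := by
          rw [← Subgroup.relIndex_top_right, ← Subgroup.relIndex_sup_right M C']
          congr 1
          rw [eq_comm, eq_top_iff, ← hsup]
          exact sup_le (hNC'.trans le_sup_right) le_sup_left
        have h2 : C'.relIndex M ∣ K.relIndex M := Subgroup.relIndex_dvd_of_le_left M hKC'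
        rw [hj] at h2
        obtain ⟨i, -, hi⟩ := (Nat.dvd_prime_pow hpr).mp h2
        exact ⟨i, by rw [h1, hi]⟩
    · -- (b2): `M` has prime index, so `N` has order `p`
      have hcardG : Nat.card G = Nat.card ↥N * Nat.card ↥M := by
        have h1 := Subgroup.card_mul_index N
        have h2 : N.index = Nat.card ↥M := by
          rw [← Subgroup.relIndex_top_right, ← hsup, Subgroup.relIndex_sup_left,
            ← Subgroup.inf_relIndex_right, hNMbot, Subgroup.relIndex_bot_left]
        rw [← h1, h2]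
      have hMidx : M.index = Nat.card ↥N := by
        have h1 : Nat.card ↥M * M.index = Nat.card ↥M * Nat.card ↥N := by
          rw [Subgroup.card_mul_index, hcardG, mul_comm]
        exact Nat.eq_of_mul_eq_mul_left Nat.card_pos h1
      have hNcard : Nat.card ↥N = p := by
        rw [hMidx, ha] at hprime
        have ha0 : a ≠ 0 := by
          intro h0
          rw [h0, pow_zero] at hprime
          exact Nat.not_prime_one hprime
        rcases (Nat.dvd_prime hprime).mp (dvd_pow_self p ha0) with h | h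
        · exact absurd h hpr.one_lt.ne'
        · rw [ha]
          exact h.symm
      obtain ⟨CN, hCN⟩ : ∃ CN : Subgroup G, CN = Subgroup.centralizer (N : Set G) := ⟨_, rfl⟩
      have hCNn : CN.Normal := by
        rw [hCN]
        exact Subgroup.normal_centralizer
      have hCNmem : ∀ x, x ∈ CN ↔ ∀ y ∈ N, y * x = x * y := by
        intro x
        rw [hCN, Subgroup.mem_centralizer_iff]
        rfl
      have hNCN : N ≤ CN := by
        intro x hx
        rw [hCNmem]
        intro y hy
        exact hNab y hy x hx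
      have hH₀ : A ⊓ M ⊓ CN = ⊥ := by
        apply hnoR
        · rw [← Subgroup.normalizer_eq_top_iff, eq_top_iff, ← hsup]
          apply sup_le
          · intro n hn
            apply mem_normalizer_of_conj_mem
            intro x hx
            have hxC : x ∈ CN := (Subgroup.mem_inf.mp hx).2
            have e : n * x * n⁻¹ = x := by
              rw [(hCNmem x).mp hxC n hn, mul_inv_cancel_right]
            rw [e]
            exact hx
          · intro m hm
            apply mem_normalizer_of_conj_mem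
            intro x hx
            obtain ⟨hx1, hxC⟩ := Subgroup.mem_inf.mp hx
            obtain ⟨hxA, hxM⟩ := Subgroup.mem_inf.mp hx1
            exact Subgroup.mem_inf.mpr ⟨Subgroup.mem_inf.mpr ⟨hA.conj_mem x hxA m,
              M.mul_mem (M.mul_mem hm hxM) (M.inv_mem hm)⟩, hCNn.conj_mem x hxC m⟩
        · intro hd
          apply hNAp
          have h1 : Nat.card ↥(A ⊓ M ⊓ CN) ∣ Nat.card ↥(A ⊓ M) :=
            Subgroup.card_dvd_of_le inf_le_left
          have h2 : N.relIndex (A ⊓ M) = Nat.card ↥(A ⊓ M) := by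
            have e : N ⊓ (A ⊓ M) = ⊥ := by
              rw [eq_bot_iff, ← hNMbot]
              exact inf_le_inf_left N inf_le_right
            rw [← Subgroup.inf_relIndex_right, e, Subgroup.relIndex_bot_left]
          have h3 : N.relIndex (A ⊓ M) ∣ N.relIndex A := relIndex_dvd_of_le N inf_le_left hNA
          rw [h2] at h3
          exact hd.trans (h1.trans h3)
      have hY : A ⊓ CN = N := by
        apply le_antisymm
        · intro x hx
          obtain ⟨hxA, hxC⟩ := Subgroup.mem_inf.mp hx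
          have hxtop : x ∈ N ⊔ M := by
            rw [hsup]
            exact Subgroup.mem_top x
          obtain ⟨n, hn, m, hm, rfl⟩ := Subgroup.mem_sup_of_normal_left.mp hxtop
          have hmA : m ∈ A := by
            have h := A.mul_mem (A.inv_mem (hNA hn)) hxA
            rwa [inv_mul_cancel_left] at h
          have hmC : m ∈ CN := by
            have h := CN.mul_mem (CN.inv_mem (hNCN hn)) hxC
            rwa [inv_mul_cancel_left] at h
          have hm1 : m ∈ A ⊓ M ⊓ CN :=
            Subgroup.mem_inf.mpr ⟨Subgroup.mem_inf.mpr ⟨hmA, hm⟩, hmC⟩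
          rw [hH₀, Subgroup.mem_bot] at hm1
          rw [hm1, mul_one]
          exact hn
        · exact le_inf hNA hNCN
      obtain ⟨B₁, hB₁⟩ : ∃ B₁ : Subgroup G, B₁ = B ⊓ CN := ⟨_, rfl⟩
      have hB₁n : B₁.Normal := by
        rw [hB₁]
        haveI := hCNn
        exact Subgroup.normal_inf_normal B CN
      have hB₁B : B₁ ≤ B := by
        rw [hB₁]
        exact inf_le_left
      have hB₁C : B₁ ≤ CN := by
        rw [hB₁]
        exact inf_le_right
      have hB₁p : IsPGroup p ↥B₁ := by
        intro x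
        have hxB : (x : G) ∈ B := hB₁B x.2
        have hxC : (x : G) ∈ CN := hB₁C x.2
        have h1 : (x : G) ^ p ^ k ∈ A := by
          have h2 := Subgroup.pow_index_mem (A.subgroupOf B) (⟨(x : G), hxB⟩ : ↥B)
          have e : (A.subgroupOf B).index = p ^ k := hk
          rw [e] at h2
          exact Subgroup.mem_subgroupOf.mp h2
        have h3 : (x : G) ^ p ^ k ∈ N := by
          rw [← hY]
          exact Subgroup.mem_inf.mpr ⟨h1, CN.pow_mem hxC _⟩
        have h4 : ((x : G) ^ p ^ k) ^ p = 1 := by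
          have h5 : (⟨(x : G) ^ p ^ k, h3⟩ : ↥N) ^ Nat.card ↥N = 1 := pow_card_eq_one'
          rw [hNcard] at h5
          exact congrArg Subtype.val h5
        refine ⟨k + 1, Subtype.ext ?_⟩
        show (x : G) ^ p ^ (k + 1) = 1
        rw [pow_succ, pow_mul]
        exact h4
      obtain ⟨b, hb⟩ := IsPGroup.iff_card.mp hB₁p
      have hBB₁ : ¬ p ∣ B₁.relIndex B := by
        obtain ⟨f, hf⟩ : ∃ f : ↥B →* MulAut ↥N, ∀ (x : ↥B) (y : ↥N),
            ((f x y : ↥N) : G) = (x : G) * (y : G) * (x : G)⁻¹ :=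
          ⟨(MulAut.conjNormal (H := N)).comp B.subtype, fun x y => rfl⟩
        have hker : f.ker = B₁.subgroupOf B := by
          ext x
          rw [MonoidHom.mem_ker, Subgroup.mem_subgroupOf, hB₁, Subgroup.mem_inf, hCNmem]
          constructor
          · intro h
            refine ⟨x.2, fun y hy => ?_⟩
            have h1 := hf x ⟨y, hy⟩
            rw [h] at h1
            have h2 : y = (x : G) * y * (x : G)⁻¹ := h1
            rw [eq_mul_inv_iff_mul_eq] at h2
            exact h2
          · rintro ⟨-, h⟩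
            apply MulEquiv.ext
            intro y
            apply Subtype.ext
            rw [hf]
            have h1 := h (y : G) y.2
            show (x : G) * (y : G) * (x : G)⁻¹ = (y : G)
            rw [← h1, mul_inv_cancel_right]
        haveI : IsCyclic ↥N := isCyclic_of_prime_card hNcard
        have hAut : Nat.card (MulAut ↥N) = p - 1 := by
          rw [IsCyclic.card_mulAut, hNcard, Nat.totient_prime hpr]
        have h1 : B₁.relIndex B = Nat.card ↥f.range := by
          show (B₁.subgroupOf B).index = _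
          rw [← hker, Subgroup.index_ker]
        have h2 : Nat.card ↥f.range ∣ p - 1 := by
          rw [← hAut]
          exact Subgroup.card_subgroup_dvd_card _
        intro hd
        rw [h1] at hd
        have h3 := Nat.le_of_dvd (Nat.sub_pos_of_lt hpr.one_lt) (hd.trans h2)
        have hp1 := hpr.one_lt
        omega
      refine ⟨⊥, B₁, C, inferInstance, hB₁n, hC, bot_le, hB₁B.trans hBC, ?_, ⟨b, ?_⟩, ?_, hCk⟩
      · rw [Subgroup.card_bot]
        exact hnd1
      · rw [Subgroup.relIndex_bot_left, hb]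
      · rw [← Subgroup.relIndex_mul_relIndex B₁ B C hB₁B hBC]
        intro hd
        rcases (Nat.Prime.dvd_mul hpr).mp hd with h | h
        · exact hBB₁ h
        · exact hBCp h

/-- solvable groups: a nontrivial one has a nontrivial normal `p`-subgroup or `p'`-subgroup -/
theorem good_solvable (p : ℕ) [Fact p.Prime] (H : Type u) [Group H] [Finite H] [Nontrivial H]
    (hs : Group.IsSolvable H) :
    ∃ M : Subgroup H, M.Normal ∧ M ≠ ⊥ ∧ (IsPGroup p M ∨ (Nat.card M).Coprime p) := by
  have hp : p.Prime := Fact.out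
  haveI := hs
  obtain ⟨r, N, hr, -, hNn, hN1, hNr, -⟩ :=
    Cfsg.Agent.Lib.Helper9.CS2.exists_abelian_normal_pgroup_le (⊤ : Subgroup H) top_ne_bot
  refine ⟨N, hNn, hN1, ?_⟩
  by_cases hrp : r = p
  · left
    rw [← hrp]
    exact hNr
  · right
    haveI := Fact.mk hr
    obtain ⟨k, hk⟩ := IsPGroup.iff_card.mp hNr
    rw [hk]
    exact Nat.Coprime.pow_left k ((Nat.coprime_primes hr hp).mpr hrp)

/-- `p`-solvable groups: a nontrivial one has a nontrivial normal `p`-subgroup or
`p'`-subgroup -/
theorem good_pSolvable (p : ℕ) [Fact p.Prime] (H : Type u) [Group H] [Finite H] [Nontrivial H]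
    (h : Cfsg.IsPSolvable p H) :
    ∃ M : Subgroup H, M.Normal ∧ M ≠ ⊥ ∧ (IsPGroup p M ∨ (Nat.card M).Coprime p) := by
  obtain ⟨n, K, h0, hlast, hmono, hnormal, hstep⟩ := h
  by_contra hno
  have key : ∀ i : Fin (n + 1), K i = ⊥ := by
    intro i
    induction i using Fin.induction with
    | zero => exact h0
    | succ j ih =>
      by_contra hne
      apply hno
      refine ⟨K j.succ, hnormal _, hne, ?_⟩
      have hs := hstep j
      rw [ih, Subgroup.relIndex_bot_left] at hs
      rcases hs with ⟨m, hm⟩ | hc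
      · exact Or.inl (IsPGroup.of_card hm)
      · exact Or.inr hc
  have h1 := key (Fin.last n)
  rw [hlast] at h1
  exact top_ne_bot h1

end Cfsg.Agent.Lib.Helper62.PLenMax
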